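import Mathlib

/-! # Permutations preserving affine ratios on `F_p`-vector spaces -/

namespace Cfsg.Agent.Lib.Recog

variable {p : ℕ} [Fact p.Prime] {V : Type*} [AddCommGroup V] [Module (ZMod p) V]

/-- For odd `p`, a permutation of an `F_p`-vector space preserving ratios on lines is affine. -/
theorem affine_of_collinear (hp : p ≠ 2) (σ : Equiv.Perm V)
    (h : ∀ (x y : V) (c : ZMod p), σ (x + c • (y - x)) = σ x + c • (σ y - σ x)) :
    ∃ (A : V ≃ₗ[ZMod p] V) (b : V), ∀ x, σ x = A x + b := by
  have h2ne : (2 : ZMod p) ≠ 0 := by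
    intro h0
    have : ((2 : ℕ) : ZMod p) = 0 := by exact_mod_cast h0
    rw [ZMod.natCast_eq_zero_iff] at this
    exact hp ((Nat.prime_dvd_prime_iff_eq Fact.out Nat.prime_two).mp this)
  let τ : V → V := fun v => σ v - σ 0
  have hsmul : ∀ (c : ZMod p) (v : V), τ (c • v) = c • τ v := by
    intro c v
    have := h 0 v c
    simp only [sub_zero, zero_add] at this
    simp only [τ]
    rw [this, smul_sub]; abel
  have hadd : ∀ x y : V, τ (x + y) = τ x + τ y := by
    intro x y
    set c : ZMod p := (2 : ZMod p)⁻¹ with hc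
    have h2c : (2 : ZMod p) * c = 1 := mul_inv_cancel₀ h2ne
    have hm : x + c • (y - x) = c • (x + y) := by
      have hx : x = (2 * c) • x := by rw [h2c, one_smul]
      have : x + c • (y - x) = (2 * c) • x + c • (y - x) := by rw [h2c, one_smul]
      rw [this, smul_sub, smul_add, two_mul, add_smul]
      abel
    have h1 : τ (c • (x + y)) = c • (τ x + τ y) := by
      simp only [τ]
      rw [← hm, h x y c, smul_add, smul_sub, smul_sub, smul_sub]
      have hx : σ x = (2 * c) • σ x := by rw [h2c, one_smul]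
      have hz : σ 0 = (2 * c) • σ 0 := by rw [h2c, one_smul]
      rw [two_mul, add_smul] at hx hz
      nth_rw 1 [hx]
      nth_rw 1 [hz]
      abel
    have h3 : τ (x + y) = (2 : ZMod p) • τ (c • (x + y)) := by
      rw [← hsmul, smul_smul, h2c, one_smul]
    rw [h3, h1, smul_smul, h2c, one_smul]
  let L : V →ₗ[ZMod p] V :=
    { toFun := τ
      map_add' := hadd
      map_smul' := hsmul }
  have hL : Function.Bijective L := by
    constructor
    · intro x y hxy
      have : σ x - σ 0 = σ y - σ 0 := hxy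
      exact σ.injective (sub_left_inj.mp this)
    · intro w
      refine ⟨σ.symm (w + σ 0), ?_⟩
      show σ (σ.symm (w + σ 0)) - σ 0 = w
      simp
  refine ⟨LinearEquiv.ofBijective L hL, σ 0, fun x => ?_⟩
  show σ x = (σ x - σ 0) + σ 0
  abel

/-- An element agreeing on a triple with an affine map preserves the ratio on that line. -/
theorem collinear_of_triple (σ : Equiv.Perm V) (G : Set (Equiv.Perm V))
    (haff : G ⊆ {τ : Equiv.Perm V | ∃ (A : V ≃ₗ[ZMod p] V) (b : V), ∀ x, τ x = A x + b})
    (h : ∀ t : Fin 3 → V, ∃ g ∈ G, ∀ i, σ (t i) = g (t i)) (x y : V) (c : ZMod p) :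
    σ (x + c • (y - x)) = σ x + c • (σ y - σ x) := by
  obtain ⟨g, hg, hgt⟩ := h ![x, y, x + c • (y - x)]
  obtain ⟨A, b, hA⟩ := haff hg
  have h0 := hgt 0
  have h1 := hgt 1
  have h2 := hgt 2
  simp only [Matrix.cons_val_zero, Matrix.cons_val_one, Matrix.cons_val] at h0 h1 h2
  rw [h2, h0, h1, hA, hA, hA]
  simp only [map_add, map_smul, map_sub]
  have : A y + b - (A x + b) = A y - A x := by abel
  rw [this]
  abel

end Cfsg.Agent.Lib.Recog
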