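import Cfsg.Agent.Lib.Recog.PermBasic

/-! # Transitive normal subgroups whose outer elements fix at most one point -/

set_option linter.style.haveILetI false
set_option autoImplicit false

namespace Cfsg.Agent.Lib.Recog

open MulAction

/-- If `H` fixes `a` and all the other orbits of `H` have size divisible by `m` then `m ∣ |Ω| - 1`. -/
lemma dvd_card_sub_one_of_orbits {H Ω : Type*} [Group H] [MulAction H Ω] [Finite Ω] (a : Ω)
    (ha : ∀ h : H, h • a = a) (m : ℕ) (hm : ∀ b : Ω, b ≠ a → m ∣ Nat.card (orbit H b)) :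
    m ∣ Nat.card Ω - 1 := by
  classical
  letI : Fintype (orbitRel.Quotient H Ω) := Fintype.ofFinite _
  have h1 : Nat.card Ω = ∑ q : orbitRel.Quotient H Ω, Nat.card q.orbit := by
    rw [Nat.card_congr (selfEquivSigmaOrbits' H Ω), Nat.card_sigma]
  let q₀ : orbitRel.Quotient H Ω := Quotient.mk _ a
  have h2 : Nat.card q₀.orbit = 1 := by
    have h3 : q₀.orbit = orbit H a := orbitRel.Quotient.orbit_mk a
    have h4 : orbit H a = {a} := by
      ext x
      simp only [Set.mem_singleton_iff, mem_orbit_iff]
      constructor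
      · rintro ⟨h, rfl⟩
        exact ha h
      · rintro rfl
        exact ⟨1, one_smul _ _⟩
    rw [h3, h4]
    simp
  rw [h1, ← Finset.add_sum_erase _ _ (Finset.mem_univ q₀), h2, Nat.add_sub_cancel_left]
  refine Finset.dvd_sum (fun q hq => ?_)
  induction q using Quotient.inductionOn with | _ b => ?_
  have hb : b ≠ a := by
    rintro rfl
    exact (Finset.mem_erase.mp hq).1 rfl
  have h3 : orbitRel.Quotient.orbit (Quotient.mk (orbitRel H Ω) b) = orbit H b := orbitRel.Quotient.orbit_mk b
  show m ∣ Nat.card (orbitRel.Quotient.orbit (Quotient.mk (orbitRel H Ω) b))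
  rw [h3]
  exact hm b hb

section main

variable {G Ω : Type*} [Group G] [Finite G] [MulAction G Ω] [Finite Ω]

lemma sup_stabilizer_eq_top (N : Subgroup G) [IsPretransitive N Ω] (a : Ω) :
    N ⊔ stabilizer G a = ⊤ := by
  rw [eq_top_iff]
  intro g _
  obtain ⟨d, hd⟩ := IsPretransitive.exists_smul_eq (M := N) a (g • a)
  have h1 : (d : G)⁻¹ * g ∈ stabilizer G a := by
    rw [mem_stabilizer_iff, mul_smul, ← hd]
    exact inv_smul_smul (d : G) a
  have h2 : g = (d : G) * ((d : G)⁻¹ * g) := by group
  rw [h2]
  exact Subgroup.mul_mem _ (Subgroup.mem_sup_left d.2) (Subgroup.mem_sup_right h1)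

lemma relIndex_stabilizer_eq (N : Subgroup G) [N.Normal] [IsPretransitive N Ω] (a : Ω) :
    N.relIndex (stabilizer G a) = N.index := by
  have h1 := Subgroup.relIndex_sup_left (stabilizer G a) N
  rw [sup_stabilizer_eq_top, Subgroup.relIndex_top_right] at h1
  exact h1.symm

/-- `|H : H_b|` is a multiple of `|G : N|` for `b ≠ a`. -/
lemma index_dvd_card_orbit (N : Subgroup G) [N.Normal] [IsPretransitive N Ω]
    (hfix : ∀ g : G, ∀ b c : Ω, b ≠ c → g • b = b → g • c = c → g ∈ N) (a b : Ω) (hb : b ≠ a) :
    N.index ∣ Nat.card (orbit (stabilizer G a) b) := by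
  rw [← relIndex_stabilizer_eq N a]
  have h1 : stabilizer (stabilizer G a) b ≤ N.subgroupOf (stabilizer G a) := by
    intro x hx
    rw [Subgroup.mem_subgroupOf]
    exact hfix _ a b hb.symm x.2 hx
  have h2 := Subgroup.index_dvd_of_le h1
  rw [index_stabilizer] at h2
  exact h2

/-- The main divisibility. -/
theorem index_dvd_card_sub_one (N : Subgroup G) [N.Normal] [IsPretransitive N Ω]
    (hfix : ∀ g : G, ∀ b c : Ω, b ≠ c → g • b = b → g • c = c → g ∈ N) :
    N.index ∣ Nat.card Ω - 1 := by
  rcases isEmpty_or_nonempty Ω with hΩ | ⟨⟨a⟩⟩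
  · simp
  · exact dvd_card_sub_one_of_orbits (H := stabilizer G a) a (fun h => h.2) N.index
      (index_dvd_card_orbit N hfix a)

/-- If `|G : N| = n - 1` then `n` is a prime power. -/
theorem isPrimePow_of_index_eq [FaithfulSMul G Ω] (N : Subgroup G) [hN : N.Normal] [IsPretransitive N Ω]
    (hfix : ∀ g : G, ∀ b c : Ω, b ≠ c → g • b = b → g • c = c → g ∈ N)
    (hΩ : 2 ≤ Nat.card Ω) (hindex : N.index = Nat.card Ω - 1) : IsPrimePow (Nat.card Ω) := by
  classical
  have hnt : Nontrivial Ω := (Finite.one_lt_card_iff_nontrivial).mp (by omega)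
  obtain ⟨a⟩ := (inferInstance : Nonempty Ω)
  -- `H`-orbits
  have horb : ∀ b : Ω, b ≠ a → orbit (stabilizer G a) b = {x | x ≠ a} := by
    intro b hb
    have hsub : orbit (stabilizer G a) b ⊆ {x | x ≠ a} := by
      rintro _ ⟨h, rfl⟩
      intro hh
      apply hb
      have : (h : G) • b = (h : G) • a := by
        rw [show (h : G) • a = a from h.2]
        exact hh
      exact smul_left_cancel _ this
    have hcard : ({x | x ≠ a} : Set Ω).ncard = Nat.card Ω - 1 := by
      have h1 : ({x | x ≠ a} : Set Ω) = {a}ᶜ := by ext; simp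
      rw [h1, Set.ncard_compl, Set.ncard_singleton]
    have hd := index_dvd_card_orbit N hfix a b hb
    rw [hindex] at hd
    have hpos : 0 < Nat.card (orbit (stabilizer G a) b) := by
      have : Nonempty (orbit (stabilizer G a) b) := ⟨⟨b, mem_orbit_self b⟩⟩
      exact Nat.card_pos
    have hle := Nat.le_of_dvd hpos hd
    apply Set.eq_of_subset_of_ncard_le hsub
    rw [hcard]
    exact hle
  -- `N_a = 1`
  have hNa : ∀ x : G, x ∈ N → x • a = a → x = 1 := by
    intro x hxN hxa
    apply FaithfulSMul.eq_of_smul_eq_smul (α := Ω)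
    intro b
    rw [one_smul]
    by_cases hb : b = a
    · rw [hb]; exact hxa
    · have hd := index_dvd_card_orbit N hfix a b hb
      have horbcard : Nat.card (orbit (stabilizer G a) b) = N.index := by
        rw [hindex]
        show (orbit (stabilizer G a) b : Set Ω).ncard = _
        rw [horb b hb]
        have h1 : ({x | x ≠ a} : Set Ω) = {a}ᶜ := by ext; simp
        rw [h1, Set.ncard_compl, Set.ncard_singleton]
      have hle : stabilizer (stabilizer G a) b ≤ N.subgroupOf (stabilizer G a) := by
        intro y hy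
        rw [Subgroup.mem_subgroupOf]
        exact hfix _ a b (Ne.symm hb) y.2 hy
      have hind : (stabilizer (stabilizer G a) b).index = (N.subgroupOf (stabilizer G a)).index := by
        rw [index_stabilizer]
        have h3 : (N.subgroupOf (stabilizer G a)).index = N.index := relIndex_stabilizer_eq N a
        rw [h3]
        exact horbcard
      have heq : stabilizer (stabilizer G a) b = N.subgroupOf (stabilizer G a) := by
        apply Subgroup.eq_of_le_of_card_ge hle
        have h4 := Subgroup.card_mul_index (stabilizer (stabilizer G a) b)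
        have h5 := Subgroup.card_mul_index (N.subgroupOf (stabilizer G a))
        rw [hind] at h4
        have hipos : 0 < (N.subgroupOf (stabilizer G a)).index := by
          rw [Nat.pos_iff_ne_zero]
          exact Subgroup.index_ne_zero_of_finite
        have := Nat.eq_of_mul_eq_mul_right hipos (h4.trans h5.symm)
        exact this.ge
      have h6 : (⟨x, hxa⟩ : stabilizer G a) ∈ N.subgroupOf (stabilizer G a) := by
        rw [Subgroup.mem_subgroupOf]
        exact hxN
      rw [← heq] at h6
      exact h6
  -- conjugacy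
  have hconj : ∀ d d' : G, d ∈ N → d' ∈ N → d ≠ 1 → d' ≠ 1 → orderOf d = orderOf d' := by
    intro d d' hd hd' hd1 hd'1
    have h1 : d • a ≠ a := fun h => hd1 (hNa d hd h)
    have h2 : d' • a ≠ a := fun h => hd'1 (hNa d' hd' h)
    have h3 : d' • a ∈ orbit (stabilizer G a) (d • a) := by
      rw [horb _ h1]
      exact h2
    obtain ⟨h, hh⟩ := h3
    have hh' : ((h : G) * d) • a = d' • a := by
      rw [mul_smul]
      exact hh
    have h4 : (h : G) * d * (h : G)⁻¹ = d' := by
      have h5 : d'⁻¹ * ((h : G) * d * (h : G)⁻¹) = 1 := by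
        apply hNa
        · exact N.mul_mem (N.inv_mem hd') (hN.conj_mem d hd h)
        · have h6 : (h : G)⁻¹ • a = a := by
            have : (h : G) • a = a := h.2
            rw [inv_smul_eq_iff, this]
          rw [mul_smul, mul_smul, h6, hh', inv_smul_smul]
      exact (inv_mul_eq_one.mp h5).symm
    rw [← h4]
    exact (orderOf_injective (MulAut.conj (h : G)).toMonoidHom (MulAut.conj (h : G)).injective d).symm
  -- `N` has the cardinality of `Ω`
  have hcardN : Nat.card N = Nat.card Ω := by
    apply Nat.card_congr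
    refine Equiv.ofBijective (fun d : N => (d : G) • a) ⟨?_, ?_⟩
    · intro d d' h
      apply Subtype.ext
      have h1 : (d' : G)⁻¹ * d = 1 := by
        apply hNa _ (N.mul_mem (N.inv_mem d'.2) d.2)
        rw [mul_smul]
        simp only at h
        rw [h, inv_smul_smul]
      exact (inv_mul_eq_one.mp h1).symm
    · intro b
      obtain ⟨d, hd⟩ := IsPretransitive.exists_smul_eq (M := N) a b
      exact ⟨d, hd⟩
  have hcn : Nat.card N ≠ 1 := by omega
  obtain ⟨p, hp, hpd⟩ := Nat.exists_prime_and_dvd hcn
  haveI : Fact p.Prime := ⟨hp⟩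
  obtain ⟨d₀, hd₀⟩ := exists_prime_orderOf_dvd_card' (G := N) p hpd
  have hd₀' : orderOf (d₀ : G) = p := by rw [← hd₀]; exact Subgroup.orderOf_coe d₀
  have hd₀1 : (d₀ : G) ≠ 1 := by
    intro h
    rw [h, orderOf_one] at hd₀'
    exact hp.one_lt.ne hd₀'
  have hpg : IsPGroup p N := by
    intro x
    refine ⟨1, ?_⟩
    apply Subtype.ext
    rw [pow_one]
    by_cases hx : (x : G) = 1
    · simp [hx]
    · have := hconj x d₀ x.2 d₀.2 hx hd₀1
      rw [hd₀'] at this
      rw [← this]
      simp
  obtain ⟨k, hk⟩ := IsPGroup.iff_card.mp hpg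
  rw [isPrimePow_nat_iff]
  refine ⟨p, k, hp, ?_, ?_⟩
  · rcases Nat.eq_zero_or_pos k with h | h
    · subst h
      rw [pow_zero] at hk
      exact absurd hk hcn
    · exact h
  · rw [← hcardN, hk]

end main

end Cfsg.Agent.Lib.Recog
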