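import Mathlib

/-! # Jordan sets in 2-transitive groups: counting

For a subset `B` of size `m` of a set of size `n`, acted on 2-transitively by `G`, we count the group elements
with prescribed behaviour on `B`.
-/

set_option linter.style.haveILetI false
set_option autoImplicit false

namespace Cfsg.Agent.Lib.Recog

open MulAction

section count

variable {G Ω : Type*} [Group G] [Fintype G] [MulAction G Ω] [Fintype Ω] [DecidableEq Ω]

/-- Two-transitivity, spelt out. -/
def TwoTrans (G Ω : Type*) [Group G] [MulAction G Ω] : Prop :=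
  ∀ a b c d : Ω, a ≠ b → c ≠ d → ∃ g : G, g • a = c ∧ g • b = d

open Classical in
/-- Number of elements carrying a pair to a pair. -/
noncomputable def pairCount (G : Type*) {Ω : Type*} [Group G] [Fintype G] [MulAction G Ω] (u v u' v' : Ω) : ℕ :=
  (Finset.univ.filter fun g : G => g • u = u' ∧ g • v = v').card

lemma pairCount_eq (h2 : TwoTrans G Ω) {u v u' v' u₁ v₁ u₁' v₁' : Ω} (h : u ≠ v) (h' : u' ≠ v')
    (h₁ : u₁ ≠ v₁) (h₁' : u₁' ≠ v₁') : pairCount G u v u' v' = pairCount G u₁ v₁ u₁' v₁' := by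
  classical
  obtain ⟨p, hp1, hp2⟩ := h2 u₁ v₁ u v h₁ h
  obtain ⟨q, hq1, hq2⟩ := h2 u' v' u₁' v₁' h' h₁'
  unfold pairCount
  refine Finset.card_bij' (fun g _ => q * g * p) (fun g _ => q⁻¹ * g * p⁻¹) ?_ ?_ ?_ ?_
  · intro g hg
    simp only [Finset.mem_filter, Finset.mem_univ, true_and] at hg ⊢
    simp only [mul_smul, hp1, hp2, hg.1, hg.2, hq1, hq2, and_self]
  · intro g hg
    simp only [Finset.mem_filter, Finset.mem_univ, true_and] at hg ⊢
    constructor
    · have : p⁻¹ • u = u₁ := by rw [← hp1, inv_smul_smul]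
      rw [mul_smul, mul_smul, this, hg.1, ← hq1, inv_smul_smul]
    · have : p⁻¹ • v = v₁ := by rw [← hp2, inv_smul_smul]
      rw [mul_smul, mul_smul, this, hg.2, ← hq2, inv_smul_smul]
  · intro g _; simp [mul_assoc]
  · intro g _; simp [mul_assoc]

variable (h2 : TwoTrans G Ω) (B : Finset Ω) {K : ℕ}
  (hK : ∀ u v u' v' : Ω, u ≠ v → u' ≠ v' → pairCount G u v u' v' = K)

include hK

/-- `#{g : g u = u'} = (n - 1) K` -/
lemma count_single (u v u' : Ω) (huv : u ≠ v) :
    (Finset.univ.filter fun g : G => g • u = u').card = (Fintype.card Ω - 1) * K := by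
  classical
  have h1 : (Finset.univ.filter fun g : G => g • u = u').card =
      ∑ v' ∈ Finset.univ.erase u', ((Finset.univ.filter fun g : G => g • u = u').filter fun g => g • v = v').card := by
    apply Finset.card_eq_sum_card_fiberwise
    intro g hg
    have hg' : g • u = u' := by simpa using hg
    simp only [Finset.coe_erase, Finset.coe_univ, Set.mem_diff, Set.mem_univ, Set.mem_singleton_iff, true_and]
    intro hv
    apply huv
    have : g • u = g • v := by rw [hg', hv]
    exact smul_left_cancel g this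
  rw [h1]
  have h3 : ∀ v' ∈ Finset.univ.erase u', ((Finset.univ.filter fun g : G => g • u = u').filter fun g => g • v = v').card = K := by
    intro v' hv'
    rw [← hK u v u' v' huv (Finset.mem_erase.mp hv').1.symm]
    unfold pairCount
    rw [Finset.filter_filter]
    congr
  rw [Finset.sum_congr rfl h3, Finset.sum_const, Finset.card_erase_of_mem (Finset.mem_univ _), Finset.card_univ,
    smul_eq_mul]

/-- `#{g : g u ∈ B} = m (n - 1) K` -/
lemma count_mem (u v : Ω) (huv : u ≠ v) :
    (Finset.univ.filter fun g : G => g • u ∈ B).card = B.card * ((Fintype.card Ω - 1) * K) := by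
  classical
  have h1 : (Finset.univ.filter fun g : G => g • u ∈ B).card =
      ∑ u' ∈ B, ((Finset.univ.filter fun g : G => g • u ∈ B).filter fun g => g • u = u').card := by
    apply Finset.card_eq_sum_card_fiberwise
    intro g hg
    simpa using hg
  rw [h1]
  have h3 : ∀ u' ∈ B, ((Finset.univ.filter fun g : G => g • u ∈ B).filter fun g => g • u = u').card
      = (Fintype.card Ω - 1) * K := by
    intro u' hu'
    rw [← count_single (G := G) hK u v u' huv]
    congr 1
    ext g
    simp only [Finset.mem_filter, Finset.mem_univ, true_and]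
    constructor
    · exact fun h => h.2
    · intro h
      exact ⟨h ▸ hu', h⟩
  rw [Finset.sum_congr rfl h3, Finset.sum_const, smul_eq_mul]

/-- `#{g : g u ∈ B, g v ∈ B} = m (m - 1) K` -/
lemma count_two_mem (u v : Ω) (huv : u ≠ v) :
    (Finset.univ.filter fun g : G => g • u ∈ B ∧ g • v ∈ B).card = B.card * (B.card - 1) * K := by
  classical
  have h1 : (Finset.univ.filter fun g : G => g • u ∈ B ∧ g • v ∈ B).card =
      ∑ p ∈ B.offDiag, ((Finset.univ.filter fun g : G => g • u ∈ B ∧ g • v ∈ B).filter fun g => (g • u, g • v) = p).card := by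
    apply Finset.card_eq_sum_card_fiberwise
    intro g hg
    have hg' : g • u ∈ B ∧ g • v ∈ B := by simpa using hg
    simp only [Finset.coe_offDiag, Set.mem_offDiag, Finset.mem_coe]
    refine ⟨hg'.1, hg'.2, ?_⟩
    intro h
    exact huv (smul_left_cancel g h)
  rw [h1]
  have h3 : ∀ p ∈ B.offDiag, ((Finset.univ.filter fun g : G => g • u ∈ B ∧ g • v ∈ B).filter fun g => (g • u, g • v) = p).card = K := by
    rintro ⟨u', v'⟩ hp
    have hp' := Finset.mem_offDiag.mp hp
    rw [← hK u v u' v' huv hp'.2.2]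
    unfold pairCount
    congr 1
    ext g
    simp only [Finset.mem_filter, Finset.mem_univ, true_and, Prod.mk.injEq]
    constructor
    · exact fun h => h.2
    · intro h
      refine ⟨?_, h⟩
      rw [h.1, h.2]
      exact ⟨hp'.1, hp'.2.1⟩
  rw [Finset.sum_congr rfl h3, Finset.sum_const, Finset.offDiag_card, smul_eq_mul]
  congr 1
  rw [Nat.mul_sub, mul_one]

/-- The group order. -/
lemma card_group_eq (u v : Ω) (huv : u ≠ v) :
    Fintype.card G = Fintype.card Ω * ((Fintype.card Ω - 1) * K) := by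
  classical
  have h1 : Fintype.card G = ∑ u' : Ω, (Finset.univ.filter fun g : G => g • u = u').card := by
    rw [← Finset.card_univ]
    apply Finset.card_eq_sum_card_fiberwise
    intro g _
    simp
  rw [h1]
  simp_rw [count_single (G := G) hK u v _ huv]
  simp

/-- Lower bound on the number of elements with `g x ∈ B`, `g a ∉ B`, `g b ∉ B`. -/
lemma count_avoid (x a b : Ω) (hxa : x ≠ a) (hxb : x ≠ b) :
    ((B.card : ℤ) * ((Fintype.card Ω : ℤ) + 1 - 2 * B.card) * K) ≤
      ((Finset.univ.filter fun g : G => g • x ∈ B ∧ g • a ∉ B ∧ g • b ∉ B).card : ℤ) := by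
  classical
  have hn : 2 ≤ Fintype.card Ω := by
    have : 1 < Fintype.card Ω := Fintype.one_lt_card_iff.mpr ⟨x, a, hxa⟩
    omega
  have h1 := count_mem (G := G) B hK x a hxa
  have h2' := count_two_mem (G := G) B hK x a hxa
  have h3 := count_two_mem (G := G) B hK x b hxb
  have hsub : (Finset.univ.filter fun g : G => g • x ∈ B) ⊆
      (Finset.univ.filter fun g : G => g • x ∈ B ∧ g • a ∉ B ∧ g • b ∉ B) ∪
      ((Finset.univ.filter fun g : G => g • x ∈ B ∧ g • a ∈ B) ∪
       (Finset.univ.filter fun g : G => g • x ∈ B ∧ g • b ∈ B)) := by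
    intro g hg
    simp only [Finset.mem_filter, Finset.mem_univ, true_and, Finset.mem_union] at hg ⊢
    by_cases ha : g • a ∈ B
    · exact Or.inr (Or.inl ⟨hg, ha⟩)
    · by_cases hb : g • b ∈ B
      · exact Or.inr (Or.inr ⟨hg, hb⟩)
      · exact Or.inl ⟨hg, ha, hb⟩
  have hle := Finset.card_le_card hsub
  have hle2 := Finset.card_union_le (Finset.univ.filter fun g : G => g • x ∈ B ∧ g • a ∉ B ∧ g • b ∉ B)
    ((Finset.univ.filter fun g : G => g • x ∈ B ∧ g • a ∈ B) ∪
       (Finset.univ.filter fun g : G => g • x ∈ B ∧ g • b ∈ B))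
  have hle3 := Finset.card_union_le (Finset.univ.filter fun g : G => g • x ∈ B ∧ g • a ∈ B)
       (Finset.univ.filter fun g : G => g • x ∈ B ∧ g • b ∈ B)
  rw [h1] at hle
  rw [h2', h3] at hle3
  have hfin : B.card * ((Fintype.card Ω - 1) * K) ≤
      (Finset.univ.filter fun g : G => g • x ∈ B ∧ g • a ∉ B ∧ g • b ∉ B).card +
      (B.card * (B.card - 1) * K + B.card * (B.card - 1) * K) := by omega
  have hcast : ((B.card * ((Fintype.card Ω - 1) * K) : ℕ) : ℤ) ≤
      (((Finset.univ.filter fun g : G => g • x ∈ B ∧ g • a ∉ B ∧ g • b ∉ B).card +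
      (B.card * (B.card - 1) * K + B.card * (B.card - 1) * K) : ℕ) : ℤ) := by exact_mod_cast hfin
  rcases Nat.eq_zero_or_pos B.card with hB | hB
  · rw [hB]
    simp
  · push_cast [Nat.cast_sub (show 1 ≤ Fintype.card Ω by omega), Nat.cast_sub (show 1 ≤ B.card by omega)] at hcast
    nlinarith

/-- The number of overlaps of `B` with a translate. -/
noncomputable def overlap (B : Finset Ω) (g : G) : ℕ := (B.filter fun u => g • u ∈ B).card

omit [Fintype G] hK in
lemma overlap_eq_sum (g : G) : overlap B g = ∑ u ∈ B, if g • u ∈ B then 1 else 0 := by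
  unfold overlap
  rw [Finset.card_filter]

/-- First moment. -/
lemma sum_overlap (u₀ v₀ : Ω) (h₀ : u₀ ≠ v₀) (hall : ∀ u : Ω, ∃ v : Ω, u ≠ v) :
    ∑ g : G, overlap B g = B.card * (B.card * ((Fintype.card Ω - 1) * K)) := by
  classical
  simp_rw [overlap_eq_sum]
  rw [Finset.sum_comm]
  have h1 : ∀ u ∈ B, (∑ g : G, if g • u ∈ B then 1 else 0) = B.card * ((Fintype.card Ω - 1) * K) := by
    intro u _
    obtain ⟨v, hv⟩ := hall u
    rw [← count_mem (G := G) B hK u v hv, Finset.card_filter]
  rw [Finset.sum_congr rfl h1, Finset.sum_const, smul_eq_mul]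

/-- Second moment. -/
lemma sum_overlap_sq (hall : ∀ u : Ω, ∃ v : Ω, u ≠ v) :
    ∑ g : G, overlap B g * overlap B g =
      B.card * (B.card * ((Fintype.card Ω - 1) * K) + (B.card - 1) * (B.card * (B.card - 1) * K)) := by
  classical
  have h0 : ∀ g : G, overlap B g * overlap B g = ∑ u ∈ B, ∑ v ∈ B, if (g • u ∈ B ∧ g • v ∈ B) then 1 else 0 := by
    intro g
    rw [overlap_eq_sum, Finset.sum_mul_sum]
    refine Finset.sum_congr rfl (fun u _ => Finset.sum_congr rfl (fun v _ => ?_))
    by_cases h1 : g • u ∈ B <;> by_cases h3 : g • v ∈ B <;> simp [h1, h3]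
  simp_rw [h0]
  rw [Finset.sum_comm]
  have h1 : ∀ u ∈ B, (∑ g : G, ∑ v ∈ B, if (g • u ∈ B ∧ g • v ∈ B) then 1 else 0) =
      B.card * ((Fintype.card Ω - 1) * K) + (B.card - 1) * (B.card * (B.card - 1) * K) := by
    intro u hu
    rw [Finset.sum_comm, ← Finset.add_sum_erase _ _ hu]
    congr 1
    · obtain ⟨v, hv⟩ := hall u
      rw [← count_mem (G := G) B hK u v hv, Finset.card_filter]
      refine Finset.sum_congr rfl (fun g _ => ?_)
      simp
    · have h3 : ∀ v ∈ B.erase u, (∑ g : G, if (g • u ∈ B ∧ g • v ∈ B) then 1 else 0) = B.card * (B.card - 1) * K := by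
        intro v hv
        rw [← count_two_mem (G := G) B hK u v (Finset.mem_erase.mp hv).1.symm, Finset.card_filter]
      rw [Finset.sum_congr rfl h3, Finset.sum_const, smul_eq_mul, Finset.card_erase_of_mem hu]
  rw [Finset.sum_congr rfl h1, Finset.sum_const, smul_eq_mul]

/-- Fisher's inequality in the form we need: the setwise stabilizer of `B` is small. -/
lemma card_stab_le (hall : ∀ u : Ω, ∃ v : Ω, u ≠ v) (hB0 : 0 < B.card) (hB1 : B.card < Fintype.card Ω) :
    (Finset.univ.filter fun g : G => ∀ u ∈ B, g • u ∈ B).card ≤ (Fintype.card Ω - 1) * K := by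
  classical
  obtain ⟨u₀⟩ : Nonempty Ω := Finset.Nonempty.to_subtype ⟨_, (Finset.card_pos.mp hB0).choose_spec⟩ |>.map Subtype.val
  obtain ⟨v₀, h₀⟩ := hall u₀
  have hn : 2 ≤ Fintype.card Ω := by omega
  set n : ℤ := (Fintype.card Ω : ℤ) with hn'
  set m : ℤ := (B.card : ℤ) with hm'
  set S := (Finset.univ.filter fun g : G => ∀ u ∈ B, g • u ∈ B) with hS
  have h1 := sum_overlap (G := G) B hK u₀ v₀ h₀ hall
  have h3 := sum_overlap_sq (G := G) B hK hall
  have h4 := card_group_eq (G := G) hK u₀ v₀ h₀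
  have hc1 : (Fintype.card Ω - 1 : ℕ) = (n - 1 : ℤ) := by
    rw [hn']
    push_cast [Nat.cast_sub (show 1 ≤ Fintype.card Ω by omega)]
    ring
  have hc2 : ((B.card - 1 : ℕ) : ℤ) = (m - 1 : ℤ) := by
    rw [hm']
    push_cast [Nat.cast_sub (show 1 ≤ B.card by omega)]
    ring
  have h1' : ∑ g : G, (overlap B g : ℤ) = m * (m * ((n - 1) * K)) := by
    have := congrArg (Nat.cast : ℕ → ℤ) h1
    push_cast at this
    rw [hc1] at this
    exact this
  have h3' : ∑ g : G, ((overlap B g : ℤ) * (overlap B g : ℤ)) =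
      m * (m * ((n - 1) * K) + (m - 1) * (m * (m - 1) * K)) := by
    have := congrArg (Nat.cast : ℕ → ℤ) h3
    push_cast at this
    rw [hc1, hc2] at this
    exact this
  have h4' : (Fintype.card G : ℤ) = n * ((n - 1) * K) := by
    have := congrArg (Nat.cast : ℕ → ℤ) h4
    push_cast at this
    rw [hc1] at this
    exact this
  -- the second moment
  have hsum : ∑ g : G, (((n - 1) * (overlap B g : ℤ) - m * (m - 1)) ^ 2) =
      m ^ 2 * K * (n - 1) * (n - m) ^ 2 := by
    have h5 : ∀ g : G, (((n - 1) * (overlap B g : ℤ) - m * (m - 1)) ^ 2) =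
        (n - 1) ^ 2 * ((overlap B g : ℤ) * (overlap B g : ℤ)) - 2 * (n - 1) * (m * (m - 1)) * (overlap B g : ℤ)
          + (m * (m - 1)) ^ 2 := by
      intro g; ring
    simp_rw [h5]
    rw [Finset.sum_add_distrib, Finset.sum_sub_distrib, ← Finset.mul_sum, ← Finset.mul_sum, h1', h3',
      Finset.sum_const, Finset.card_univ, nsmul_eq_mul, h4']
    ring
  -- on `S` the term is large
  have hlow : (S.card : ℤ) * (m * (n - m)) ^ 2 ≤
      ∑ g : G, (((n - 1) * (overlap B g : ℤ) - m * (m - 1)) ^ 2) := by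
    have h6 : ∀ g ∈ S, ((n - 1) * (overlap B g : ℤ) - m * (m - 1)) ^ 2 = (m * (n - m)) ^ 2 := by
      intro g hg
      have hg' : ∀ u ∈ B, g • u ∈ B := by simpa [hS] using hg
      have : overlap B g = B.card := by
        unfold overlap
        rw [Finset.filter_true_of_mem hg']
      rw [this]
      congr 1
      rw [hm']
      ring
    calc (S.card : ℤ) * (m * (n - m)) ^ 2 = ∑ g ∈ S, ((n - 1) * (overlap B g : ℤ) - m * (m - 1)) ^ 2 := by
          rw [Finset.sum_congr rfl h6, Finset.sum_const, nsmul_eq_mul]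
      _ ≤ _ := Finset.sum_le_sum_of_subset_of_nonneg (Finset.subset_univ _) (fun _ _ _ => sq_nonneg _)
  rw [hsum] at hlow
  have hm0 : (0 : ℤ) < m := by rw [hm']; exact_mod_cast hB0
  have hnm : (0 : ℤ) < n - m := by
    have : (B.card : ℤ) < (Fintype.card Ω : ℤ) := by exact_mod_cast hB1
    rw [hn', hm']
    linarith
  have hpos : (0 : ℤ) < (m * (n - m)) ^ 2 := by positivity
  have hfinal : (S.card : ℤ) ≤ (n - 1) * K := by
    have : (S.card : ℤ) * (m * (n - m)) ^ 2 ≤ ((n - 1) * K) * (m * (n - m)) ^ 2 := by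
      calc _ ≤ m ^ 2 * K * (n - 1) * (n - m) ^ 2 := hlow
        _ = _ := by ring
    exact le_of_mul_le_mul_right this hpos
  rw [← hc1] at hfinal
  exact_mod_cast hfinal

end count

section jordan

variable {G Ω : Type*} [Group G] [MulAction G Ω] [DecidableEq Ω]

/-- A Jordan set, spelt out. -/
def IsJ (G : Type*) {Ω : Type*} [Group G] [MulAction G Ω] (T : Finset Ω) : Prop :=
  ∀ x ∈ T, ∀ y ∈ T, ∃ g : G, (∀ z, z ∉ T → g • z = z) ∧ g • x = y

lemma IsJ.union {T₁ T₂ : Finset Ω} (h₁ : IsJ G T₁) (h₂ : IsJ G T₂) (h : (T₁ ∩ T₂).Nonempty) : IsJ G (T₁ ∪ T₂) := by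
  obtain ⟨c, hc⟩ := h
  have hc1 := (Finset.mem_inter.mp hc).1
  have hc2 := (Finset.mem_inter.mp hc).2
  have key : ∀ x ∈ T₁ ∪ T₂, ∃ g : G, (∀ z, z ∉ T₁ ∪ T₂ → g • z = z) ∧ g • x = c := by
    intro x hx
    rcases Finset.mem_union.mp hx with hx | hx
    · obtain ⟨g, hg, hgx⟩ := h₁ x hx c hc1
      exact ⟨g, fun z hz => hg z (fun h' => hz (Finset.mem_union_left _ h')), hgx⟩
    · obtain ⟨g, hg, hgx⟩ := h₂ x hx c hc2
      exact ⟨g, fun z hz => hg z (fun h' => hz (Finset.mem_union_right _ h')), hgx⟩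
  intro x hx y hy
  obtain ⟨g, hg, hgx⟩ := key x hx
  obtain ⟨g', hg', hgy⟩ := key y hy
  refine ⟨g'⁻¹ * g, fun z hz => ?_, ?_⟩
  · rw [mul_smul, hg z hz, inv_smul_eq_iff, hg' z hz]
  · rw [mul_smul, hgx, inv_smul_eq_iff, hgy]

/-- Translates of a Jordan set. -/
noncomputable def translate (g : G) (T : Finset Ω) : Finset Ω := T.image fun z => g⁻¹ • z

lemma mem_translate (g : G) (T : Finset Ω) (z : Ω) : z ∈ translate g T ↔ g • z ∈ T := by
  unfold translate
  simp only [Finset.mem_image]
  constructor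
  · rintro ⟨w, hw, rfl⟩
    simpa using hw
  · intro h
    exact ⟨g • z, h, by simp⟩

lemma card_translate (g : G) (T : Finset Ω) : (translate g T).card = T.card := by
  unfold translate
  exact Finset.card_image_of_injective _ (MulAction.injective g⁻¹)

lemma IsJ.translate {T : Finset Ω} (h : IsJ G T) (g : G) : IsJ G (translate g T) := by
  intro x hx y hy
  rw [mem_translate] at hx hy
  obtain ⟨k, hk, hkx⟩ := h _ hx _ hy
  refine ⟨g⁻¹ * k * g, fun z hz => ?_, ?_⟩
  · rw [mem_translate] at hz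
    rw [mul_smul, mul_smul, hk _ hz, inv_smul_smul]
  · rw [mul_smul, mul_smul, hkx, inv_smul_smul]

end jordan

section three

variable {G Ω : Type*} [Group G] [Fintype G] [MulAction G Ω] [Fintype Ω] [DecidableEq Ω]

/-- Jordan sets avoiding `a`, `b` and containing `e`. -/
noncomputable def family (G : Type*) {Ω : Type*} [Group G] [MulAction G Ω] [Fintype Ω] [DecidableEq Ω]
    (a b e : Ω) : Finset (Finset Ω) := by
  classical
  exact Finset.univ.filter fun T => IsJ G T ∧ 2 ≤ T.card ∧ a ∉ T ∧ b ∉ T ∧ e ∈ T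

lemma mem_family (a b e : Ω) (T : Finset Ω) :
    T ∈ family G a b e ↔ IsJ G T ∧ 2 ≤ T.card ∧ a ∉ T ∧ b ∉ T ∧ e ∈ T := by
  classical
  unfold family
  simp

lemma family_nonempty (h2 : TwoTrans G Ω) (Γ : Finset Ω) (hJ : IsJ G Γ) (h1 : 2 ≤ Γ.card)
    (hsz : 2 * Γ.card ≤ Fintype.card Ω) (a b e : Ω) (hab : a ≠ b) (hea : e ≠ a) (heb : e ≠ b) :
    (family G a b e).Nonempty := by
  classical
  have hK : ∀ u v u' v' : Ω, u ≠ v → u' ≠ v' → pairCount G u v u' v' = pairCount G a b a b :=
    fun u v u' v' h h' => pairCount_eq h2 h h' hab hab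
  have hKpos : 0 < pairCount G a b a b := by
    unfold pairCount
    exact Finset.card_pos.mpr ⟨1, by simp⟩
  have hc := count_avoid (G := G) Γ hK e a b hea heb
  have hpos : (0 : ℤ) < ((Γ.card : ℤ) * ((Fintype.card Ω : ℤ) + 1 - 2 * Γ.card) * (pairCount G a b a b : ℤ)) := by
    have h3 : (0 : ℤ) < Γ.card := by
      have : 0 < Γ.card := by omega
      exact_mod_cast this
    have h4 : (0 : ℤ) < (Fintype.card Ω : ℤ) + 1 - 2 * Γ.card := by
      have : ((2 * Γ.card : ℕ) : ℤ) ≤ (Fintype.card Ω : ℤ) := by exact_mod_cast hsz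
      push_cast at this
      linarith
    have h5 : (0 : ℤ) < (pairCount G a b a b : ℤ) := by exact_mod_cast hKpos
    positivity
  have hne : (Finset.univ.filter fun g : G => g • e ∈ Γ ∧ g • a ∉ Γ ∧ g • b ∉ Γ).Nonempty := by
    rw [← Finset.card_pos]
    have : (0 : ℤ) < ((Finset.univ.filter fun g : G => g • e ∈ Γ ∧ g • a ∉ Γ ∧ g • b ∉ Γ).card : ℤ) := lt_of_lt_of_le hpos hc
    exact_mod_cast this
  obtain ⟨g, hg⟩ := hne
  simp only [Finset.mem_filter, Finset.mem_univ, true_and] at hg
  refine ⟨translate g Γ, (mem_family _ _ _ _).mpr ⟨hJ.translate g, ?_, ?_, ?_, ?_⟩⟩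
  · rw [card_translate]; exact h1
  · rw [mem_translate]; exact hg.2.1
  · rw [mem_translate]; exact hg.2.2
  · rw [mem_translate]; exact hg.1

/-- A small maximal member of the family does not exist. -/
lemma no_small_max (h2 : TwoTrans G Ω) (a b e : Ω) (hab : a ≠ b) (hea : e ≠ a) (heb : e ≠ b) (B : Finset Ω)
    (hB : B ∈ family G a b e) (hmax : ∀ T ∈ family G a b e, T.card ≤ B.card)
    (hsz : 2 * B.card + 2 ≤ Fintype.card Ω) : False := by
  classical
  obtain ⟨hBJ, hB2, hBa, hBb, hBe⟩ := (mem_family _ _ _ _).mp hB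
  have hK : ∀ u v u' v' : Ω, u ≠ v → u' ≠ v' → pairCount G u v u' v' = pairCount G a b a b :=
    fun u v u' v' h h' => pairCount_eq h2 h h' hab hab
  have hKpos : 0 < pairCount G a b a b := by
    unfold pairCount
    exact Finset.card_pos.mpr ⟨1, by simp⟩
  have hall : ∀ u : Ω, ∃ v : Ω, u ≠ v := by
    intro u
    by_cases hu : u = a
    · exact ⟨b, hu ▸ hab⟩
    · exact ⟨a, hu⟩
  have hc := count_avoid (G := G) B hK e a b hea heb
  have hS := card_stab_le (G := G) B hK hall (by omega) (by omega)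
  set K := pairCount G a b a b with hKdef
  have hnotsub : ¬ ((Finset.univ.filter fun g : G => g • e ∈ B ∧ g • a ∉ B ∧ g • b ∉ B) ⊆
      (Finset.univ.filter fun g : G => ∀ u ∈ B, g • u ∈ B)) := by
    intro hsub
    have h3 := Finset.card_le_card hsub
    have h4 : ((Finset.univ.filter fun g : G => g • e ∈ B ∧ g • a ∉ B ∧ g • b ∉ B).card : ℤ) ≤
        (((Fintype.card Ω - 1) * K : ℕ) : ℤ) := by
      exact_mod_cast h3.trans hS
    have h5 := hc.trans h4
    push_cast [Nat.cast_sub (show 1 ≤ Fintype.card Ω by omega)] at h5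
    have hm : (2 : ℤ) ≤ B.card := by exact_mod_cast hB2
    have hn : (2 : ℤ) * B.card + 2 ≤ Fintype.card Ω := by exact_mod_cast hsz
    have hK0 : (0 : ℤ) < K := by exact_mod_cast hKpos
    have h6 : (0 : ℤ) < ((B.card : ℤ) - 1) * ((Fintype.card Ω : ℤ) - 2 * B.card - 1) := by
      apply mul_pos <;> linarith
    nlinarith
  obtain ⟨g, hgW, hgS⟩ := Finset.not_subset.mp hnotsub
  simp only [Finset.mem_filter, Finset.mem_univ, true_and] at hgW hgS
  push Not at hgS
  obtain ⟨u, huB, hgu⟩ := hgS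
  have hT : translate g B ∈ family G a b e := by
    refine (mem_family _ _ _ _).mpr ⟨hBJ.translate g, ?_, ?_, ?_, ?_⟩
    · rw [card_translate]; exact hB2
    · rw [mem_translate]; exact hgW.2.1
    · rw [mem_translate]; exact hgW.2.2
    · rw [mem_translate]; exact hgW.1
  obtain ⟨hTJ, hT2, hTa, hTb, hTe⟩ := (mem_family _ _ _ _).mp hT
  have hU : B ∪ translate g B ∈ family G a b e := by
    refine (mem_family _ _ _ _).mpr ⟨hBJ.union hTJ ⟨e, Finset.mem_inter.mpr ⟨hBe, hTe⟩⟩, ?_, ?_, ?_, ?_⟩
    · exact hB2.trans (Finset.card_le_card Finset.subset_union_left)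
    · simp [hBa, hTa]
    · simp [hBb, hTb]
    · exact Finset.mem_union_left _ hBe
  have hle := hmax _ hU
  have hsub : translate g B ⊆ B := by
    have h7 : B ∪ translate g B = B := by
      symm
      exact Finset.eq_of_subset_of_card_le Finset.subset_union_left hle
    intro z hz
    rw [← h7]
    exact Finset.mem_union_right _ hz
  have heq : translate g B = B := Finset.eq_of_subset_of_card_le hsub (by rw [card_translate])
  apply hgu
  rw [← mem_translate, heq]
  exact huB

/-- The key result: the stabilizer of two points is transitive on the rest. -/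
theorem exists_fix_two (h2 : TwoTrans G Ω) (Γ : Finset Ω) (hJ : IsJ G Γ) (h1 : 2 ≤ Γ.card)
    (hsz : 2 * Γ.card ≤ Fintype.card Ω) (a b c d : Ω) (hab : a ≠ b) (hca : c ≠ a) (hcb : c ≠ b)
    (hda : d ≠ a) (hdb : d ≠ b) : ∃ g : G, g • a = a ∧ g • b = b ∧ g • c = d := by
  classical
  obtain ⟨M, hM, hMmax⟩ := Finset.exists_max_image (family G a b c) Finset.card
    (family_nonempty h2 Γ hJ h1 hsz a b c hab hca hcb)
  obtain ⟨M', hM', hMmax'⟩ := Finset.exists_max_image (family G a b d) Finset.card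
    (family_nonempty h2 Γ hJ h1 hsz a b d hab hda hdb)
  obtain ⟨hMJ, hM2, hMa, hMb, hMc⟩ := (mem_family _ _ _ _).mp hM
  obtain ⟨hMJ', hM2', hMa', hMb', hMd'⟩ := (mem_family _ _ _ _).mp hM'
  have hd : d ∈ M := by
    by_contra hdM
    have hdisj : M ∩ M' = ∅ := by
      by_contra hne
      have hne' : (M ∩ M').Nonempty := Finset.nonempty_iff_ne_empty.mpr hne
      have hU : M ∪ M' ∈ family G a b c := by
        refine (mem_family _ _ _ _).mpr ⟨hMJ.union hMJ' hne', ?_, ?_, ?_, ?_⟩
        · exact hM2.trans (Finset.card_le_card Finset.subset_union_left)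
        · simp [hMa, hMa']
        · simp [hMb, hMb']
        · exact Finset.mem_union_left _ hMc
      have hle := hMmax _ hU
      have h7 : M ∪ M' = M := by
        symm
        exact Finset.eq_of_subset_of_card_le Finset.subset_union_left hle
      apply hdM
      rw [← h7]
      exact Finset.mem_union_right _ hMd'
    have hcard : M.card + M'.card + 2 ≤ Fintype.card Ω := by
      have h3 : M.card + M'.card = (M ∪ M').card := by
        rw [Finset.card_union_of_disjoint (Finset.disjoint_iff_inter_eq_empty.mpr hdisj)]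
      have h4 : M ∪ M' ⊆ (Finset.univ.erase a).erase b := by
        intro z hz
        rw [Finset.mem_erase, Finset.mem_erase]
        rcases Finset.mem_union.mp hz with hz | hz
        · refine ⟨?_, ?_, Finset.mem_univ _⟩
          · rintro rfl; exact hMb hz
          · rintro rfl; exact hMa hz
        · refine ⟨?_, ?_, Finset.mem_univ _⟩
          · rintro rfl; exact hMb' hz
          · rintro rfl; exact hMa' hz
      have h5 := Finset.card_le_card h4
      rw [Finset.card_erase_of_mem (Finset.mem_erase.mpr ⟨hab.symm, Finset.mem_univ _⟩),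
        Finset.card_erase_of_mem (Finset.mem_univ _), Finset.card_univ] at h5
      have h6 : 2 ≤ Fintype.card Ω := by
        have : 1 < Fintype.card Ω := Fintype.one_lt_card_iff.mpr ⟨a, b, hab⟩
        omega
      omega
    rcases le_total M.card M'.card with hle | hle
    · exact no_small_max h2 a b c hab hca hcb M hM hMmax (by omega)
    · exact no_small_max h2 a b d hab hda hdb M' hM' hMmax' (by omega)
  obtain ⟨g, hg, hgc⟩ := hMJ c hMc d hd
  exact ⟨g, hg a hMa, hg b hMb, hgc⟩

/-- From two-transitivity and the key result to 3-transitivity. -/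
theorem isThreeTrans (h2 : TwoTrans G Ω) (Γ : Finset Ω) (hJ : IsJ G Γ) (h1 : 2 ≤ Γ.card)
    (hsz : 2 * Γ.card ≤ Fintype.card Ω) : IsMultiplyPretransitive G Ω 3 := by
  refine ⟨fun x y => ?_⟩
  have hx01 : x 0 ≠ x 1 := fun h => by simpa using x.injective h
  have hx02 : x 0 ≠ x 2 := fun h => by simpa using x.injective h
  have hx12 : x 1 ≠ x 2 := fun h => by simpa using x.injective h
  have hy01 : y 0 ≠ y 1 := fun h => by simpa using y.injective h
  have hy02 : y 0 ≠ y 2 := fun h => by simpa using y.injective h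
  have hy12 : y 1 ≠ y 2 := fun h => by simpa using y.injective h
  obtain ⟨g₁, hg0, hg1⟩ := h2 _ _ _ _ hx01 hy01
  obtain ⟨g₂, h20, h21, h22⟩ := exists_fix_two h2 Γ hJ h1 hsz (y 0) (y 1) (g₁ • x 2) (y 2) hy01
    (fun h => hx02 (by
      rw [← hg0] at h
      exact (smul_left_cancel g₁ h).symm))
    (fun h => hx12 (by
      rw [← hg1] at h
      exact (smul_left_cancel g₁ h).symm))
    hy02.symm hy12.symm
  refine ⟨g₂ * g₁, ?_⟩
  ext i
  fin_cases i
  · show (g₂ * g₁) • x 0 = y 0
    rw [mul_smul, hg0, h20]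
  · show (g₂ * g₁) • x 1 = y 1
    rw [mul_smul, hg1, h21]
  · show (g₂ * g₁) • x 2 = y 2
    rw [mul_smul, h22]

end three

end Cfsg.Agent.Lib.Recog
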