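import Mathlib
import Cfsg.Agent.Lib.Recog.JordanSet

/-! # High transitivity from a Jordan set of size below `n / 2` -/

set_option linter.style.haveILetI false
set_option autoImplicit false

namespace Cfsg.Agent.Lib.Recog

open MulAction

section tuples

variable {G Ω : Type*} [Group G] [MulAction G Ω]

/-- `k`-transitivity moves arbitrary tuples of length at most `k`. -/
lemma exists_smul_embedding [Finite Ω] {k : ℕ} (hk : IsMultiplyPretransitive G Ω k)
    (hn : k ≤ Nat.card Ω) {ι : Type*} [Fintype ι] (hι : Fintype.card ι ≤ k) (p q : ι ↪ Ω) :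
    ∃ g : G, ∀ i, g • p i = q i := by
  haveI := hk
  haveI : IsMultiplyPretransitive G Ω (Fintype.card ι) := isMultiplyPretransitive_of_le hι hn
  let e : ι ≃ Fin (Fintype.card ι) := Fintype.equivFin ι
  obtain ⟨g, hg⟩ := exists_smul_eq (M := G) (e.symm.toEmbedding.trans p) (e.symm.toEmbedding.trans q)
  refine ⟨g, fun i => ?_⟩
  have := DFunLike.congr_fun hg (e i)
  simpa using this

/-- From `k`-transitivity and transitivity of the pointwise stabilizers of `k`-sets, to `(k+1)`-transitivity. -/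
lemma trans_succ [DecidableEq Ω] {k : ℕ} (hk : IsMultiplyPretransitive G Ω k)
    (hF : ∀ X : Finset Ω, X.card = k → ∀ z w : Ω, z ∉ X → w ∉ X →
      ∃ g : G, (∀ x ∈ X, g • x = x) ∧ g • z = w) : IsMultiplyPretransitive G Ω (k + 1) := by
  classical
  refine ⟨fun x y => ?_⟩
  let ι : Fin k ↪ Fin (k + 1) := Fin.castSuccEmb
  obtain ⟨g₁, hg₁⟩ := hk.exists_smul_eq (ι.trans x) (ι.trans y)
  have hg₁' : ∀ i : Fin k, g₁ • x (Fin.castSucc i) = y (Fin.castSucc i) := by
    intro i
    have := DFunLike.congr_fun hg₁ i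
    simpa [ι] using this
  let X : Finset Ω := Finset.univ.image fun i : Fin k => y (Fin.castSucc i)
  have hXcard : X.card = k := by
    rw [Finset.card_image_of_injective]
    · simp
    · intro i j hij
      have := y.injective hij
      exact Fin.castSucc_injective _ this
  have hz : g₁ • x (Fin.last k) ∉ X := by
    intro h
    obtain ⟨i, _, hi⟩ := Finset.mem_image.mp h
    rw [← hg₁' i] at hi
    have := smul_left_cancel g₁ hi
    have h2 := x.injective this
    exact (Fin.castSucc_lt_last i).ne h2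
  have hw : y (Fin.last k) ∉ X := by
    intro h
    obtain ⟨i, _, hi⟩ := Finset.mem_image.mp h
    have h2 := y.injective hi
    exact (Fin.castSucc_lt_last i).ne h2
  obtain ⟨g₂, hfix, hg₂⟩ := hF X hXcard _ _ hz hw
  refine ⟨g₂ * g₁, ?_⟩
  ext i
  rw [Function.Embedding.smul_apply, mul_smul]
  induction i using Fin.lastCases with
  | last => rw [hg₂]
  | cast i =>
    rw [hg₁']
    exact hfix _ (Finset.mem_image.mpr ⟨i, Finset.mem_univ _, rfl⟩)

end tuples

section counting

variable {G Ω : Type*} [Group G] [Fintype G] [MulAction G Ω] [Fintype Ω] [DecidableEq Ω]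

open Classical in
/-- The number of `g` carrying `Y` into `Γ` and `Z` out of `Γ`. -/
noncomputable def cnt (G : Type*) {Ω : Type*} [Group G] [Fintype G] [MulAction G Ω] (Γ Y Z : Finset Ω) : ℕ :=
  (Finset.univ.filter fun g : G => (∀ y ∈ Y, g • y ∈ Γ) ∧ (∀ z ∈ Z, g • z ∉ Γ)).card

lemma cnt_split (Γ Y Z : Finset Ω) (z : Ω) :
    cnt G Γ Y (insert z Z) + cnt G Γ (insert z Y) Z = cnt G Γ Y Z := by
  classical
  unfold cnt
  rw [← Finset.card_union_of_disjoint]
  · congr 1
    ext g
    simp only [Finset.mem_union, Finset.mem_filter, Finset.mem_univ, true_and, Finset.mem_insert, forall_eq_or_imp]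
    tauto
  · rw [Finset.disjoint_left]
    intro g hg hg'
    simp only [Finset.mem_filter, Finset.mem_univ, true_and, Finset.mem_insert, forall_eq_or_imp] at hg hg'
    exact hg.2.1 hg'.1.1

open Classical in
/-- The stabilizer count of tuples is a constant. -/
lemma tuple_count {k : ℕ} (hk : IsMultiplyPretransitive G Ω k) (p₀ : Fin k ↪ Ω) {ι : Type*} [Fintype ι]
    (hι : Fintype.card ι = k) (p q : ι ↪ Ω) :
    (Finset.univ.filter fun g : G => g • p = q).card =
      (Finset.univ.filter fun g : G => g • p₀ = p₀).card := by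
  let e : ι ≃ Fin k := Fintype.equivFinOfCardEq hι
  obtain ⟨a, ha⟩ := hk.exists_smul_eq p₀ (e.symm.toEmbedding.trans p)
  obtain ⟨b, hb⟩ := hk.exists_smul_eq (e.symm.toEmbedding.trans q) p₀
  have ha' : ∀ i : ι, a • p₀ (e i) = p i := by
    intro i
    have := DFunLike.congr_fun ha (e i)
    simpa using this
  have hb' : ∀ i : ι, b • q i = p₀ (e i) := by
    intro i
    have := DFunLike.congr_fun hb (e i)
    simpa using this
  refine Finset.card_bij' (fun g _ => b * g * a) (fun g _ => b⁻¹ * g * a⁻¹) ?_ ?_ ?_ ?_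
  · intro g hg
    simp only [Finset.mem_filter, Finset.mem_univ, true_and] at hg ⊢
    ext j
    obtain ⟨i, rfl⟩ := e.surjective j
    have h1 := DFunLike.congr_fun hg i
    simp only [Function.Embedding.smul_apply] at h1 ⊢
    rw [mul_smul, mul_smul, ha', h1, hb']
  · intro g hg
    simp only [Finset.mem_filter, Finset.mem_univ, true_and] at hg ⊢
    ext i
    have h1 := DFunLike.congr_fun hg (e i)
    simp only [Function.Embedding.smul_apply] at h1 ⊢
    have h2 : a⁻¹ • p i = p₀ (e i) := by rw [← ha' i, inv_smul_smul]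
    rw [mul_smul, mul_smul, h2, h1, ← hb' i, inv_smul_smul]
  · intro g _; simp [mul_assoc]
  · intro g _; simp [mul_assoc]

open Classical in
/-- Number of embeddings with a prescribed pattern. -/
lemma card_target (Γ Y Z : Finset Ω) :
    (Finset.univ.filter fun q : (↥Y ⊕ ↥Z) ↪ Ω =>
      (∀ a : ↥Y, q (Sum.inl a) ∈ Γ) ∧ (∀ b : ↥Z, q (Sum.inr b) ∉ Γ)).card =
      Γ.card.descFactorial Y.card * (Fintype.card Ω - Γ.card).descFactorial Z.card := by
  let T := {q : (↥Y ⊕ ↥Z) ↪ Ω // (∀ a : ↥Y, q (Sum.inl a) ∈ Γ) ∧ (∀ b : ↥Z, q (Sum.inr b) ∉ Γ)}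
  let e : T ≃ (↥Y ↪ ↥Γ) × (↥Z ↪ {z // z ∉ Γ}) :=
    { toFun := fun q =>
        (⟨fun a => ⟨q.1 (Sum.inl a), q.2.1 a⟩, fun a a' h => by
            have := q.1.injective (congrArg Subtype.val h)
            exact Sum.inl_injective this⟩,
         ⟨fun b => ⟨q.1 (Sum.inr b), q.2.2 b⟩, fun b b' h => by
            have := q.1.injective (congrArg Subtype.val h)
            exact Sum.inr_injective this⟩)
      invFun := fun u =>
        ⟨⟨Sum.elim (fun a => (u.1 a : Ω)) (fun b => (u.2 b : Ω)), by
            rintro (a | b) (a' | b') h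
            · simp only [Sum.elim_inl] at h
              rw [u.1.injective (Subtype.ext h)]
            · simp only [Sum.elim_inl, Sum.elim_inr] at h
              exact absurd ((u.1 a).2) (h ▸ (u.2 b').2)
            · simp only [Sum.elim_inl, Sum.elim_inr] at h
              exact absurd ((u.1 a').2) (h ▸ (u.2 b).2)
            · simp only [Sum.elim_inr] at h
              rw [u.2.injective (Subtype.ext h)]⟩,
          fun a => (u.1 a).2, fun b => (u.2 b).2⟩
      left_inv := fun q => by
        apply Subtype.ext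
        ext (a | b) <;> rfl
      right_inv := fun u => by
        ext <;> rfl }
  have h1 : (Finset.univ.filter fun q : (↥Y ⊕ ↥Z) ↪ Ω =>
      (∀ a : ↥Y, q (Sum.inl a) ∈ Γ) ∧ (∀ b : ↥Z, q (Sum.inr b) ∉ Γ)).card = Fintype.card T := by
    rw [Fintype.card_subtype]
  rw [h1, Fintype.card_congr e, Fintype.card_prod, Fintype.card_embedding_eq, Fintype.card_embedding_eq]
  simp only [Fintype.card_coe]
  congr 2
  rw [Fintype.card_subtype_compl]
  simp

open Classical in
/-- The count at level `k`. -/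
lemma cnt_eq {k : ℕ} (hk : IsMultiplyPretransitive G Ω k) (p₀ : Fin k ↪ Ω) (Γ Y Z : Finset Ω)
    (hdisj : Disjoint Y Z) (hcard : Y.card + Z.card = k) :
    cnt G Γ Y Z = Γ.card.descFactorial Y.card * (Fintype.card Ω - Γ.card).descFactorial Z.card *
      (Finset.univ.filter fun g : G => g • p₀ = p₀).card := by
  let p : (↥Y ⊕ ↥Z) ↪ Ω := ⟨Sum.elim (fun a => (a : Ω)) (fun b => (b : Ω)), by
    rintro (a | b) (a' | b') h
    · simp only [Sum.elim_inl] at h
      rw [Subtype.ext h]
    · simp only [Sum.elim_inl, Sum.elim_inr] at h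
      exact absurd b'.2 (Finset.disjoint_left.mp hdisj (h ▸ a.2))
    · simp only [Sum.elim_inl, Sum.elim_inr] at h
      exact absurd b.2 (Finset.disjoint_left.mp hdisj (h ▸ a'.2))
    · simp only [Sum.elim_inr] at h
      rw [Subtype.ext h]⟩
  have hι : Fintype.card (↥Y ⊕ ↥Z) = k := by
    simp [hcard]
  let T : Finset ((↥Y ⊕ ↥Z) ↪ Ω) := Finset.univ.filter fun q =>
      (∀ a : ↥Y, q (Sum.inl a) ∈ Γ) ∧ (∀ b : ↥Z, q (Sum.inr b) ∉ Γ)
  have h1 : cnt G Γ Y Z = ∑ q ∈ T, (Finset.univ.filter fun g : G => g • p = q).card := by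
    unfold cnt
    have h2 : ∀ g : G, ((∀ y ∈ Y, g • y ∈ Γ) ∧ (∀ z ∈ Z, g • z ∉ Γ)) ↔ g • p ∈ T := by
      intro g
      simp only [T, Finset.mem_filter, Finset.mem_univ, true_and, Function.Embedding.smul_apply]
      constructor
      · rintro ⟨h3, h4⟩
        exact ⟨fun a => h3 a a.2, fun b => h4 b b.2⟩
      · rintro ⟨h3, h4⟩
        exact ⟨fun y hy => h3 ⟨y, hy⟩, fun z hz => h4 ⟨z, hz⟩⟩
    simp_rw [h2]
    rw [Finset.card_eq_sum_card_fiberwise (f := fun g : G => g • p) (t := T)]
    · refine Finset.sum_congr rfl (fun q hq => ?_)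
      congr 1
      ext g
      simp only [Finset.mem_filter, Finset.mem_univ, true_and]
      constructor
      · exact fun h => h.2
      · intro h
        exact ⟨h ▸ hq, h⟩
    · intro g hg
      simpa using hg
  rw [h1]
  have h3 : ∀ q ∈ T, (Finset.univ.filter fun g : G => g • p = q).card =
      (Finset.univ.filter fun g : G => g • p₀ = p₀).card := by
    intro q _
    exact tuple_count hk p₀ hι p q
  rw [Finset.sum_congr rfl h3, Finset.sum_const, smul_eq_mul]
  congr 1
  exact card_target Γ Y Z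

end counting

section cover

lemma descFactorial_lt_of_lt {a b : ℕ} (hab : a < b) {j : ℕ} (hj : 1 ≤ j) (hjb : j ≤ b) :
    a.descFactorial j < b.descFactorial j := by
  induction j, hj using Nat.le_induction with
  | base => simpa using hab
  | succ j hj ih =>
    rw [Nat.descFactorial_succ, Nat.descFactorial_succ]
    have h1 := ih (by omega)
    have h2 : a - j ≤ b - j := by omega
    have h3 : 0 < b - j := by omega
    calc (a - j) * a.descFactorial j ≤ (b - j) * a.descFactorial j := Nat.mul_le_mul_right _ h2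
      _ < (b - j) * b.descFactorial j := Nat.mul_lt_mul_of_pos_left h1 h3

/-- The generic count. -/
def genCount (m r k i : ℕ) : ℤ := (m.descFactorial i : ℤ) * (r.descFactorial (k + 1 - i) : ℤ)

lemma genCount_add (m r k i : ℕ) (hi : i ≤ k) (him : i ≤ m) (hkr : k - i ≤ r) :
    genCount m r k i + genCount m r k (i + 1) =
      ((r + m - k : ℕ) : ℤ) * (m.descFactorial i : ℤ) * (r.descFactorial (k - i) : ℤ) := by
  unfold genCount
  have h1 : k + 1 - i = (k - i) + 1 := by omega
  have h2 : k + 1 - (i + 1) = k - i := by omega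
  rw [h1, h2, Nat.descFactorial_succ r, Nat.descFactorial_succ m]
  have h3 : ((r + m - k : ℕ) : ℤ) = ((r - (k - i) : ℕ) : ℤ) + ((m - i : ℕ) : ℤ) := by
    have : r + m - k = (r - (k - i)) + (m - i) := by omega
    rw [this]
    push_cast
    ring
  rw [h3]
  push_cast
  ring

variable {G Ω : Type*} [Group G] [Fintype G] [MulAction G Ω] [Fintype Ω] [DecidableEq Ω]

/-- The defect. -/
noncomputable def bDefect (G : Type*) {Ω : Type*} [Group G] [Fintype G] [MulAction G Ω] (Γ : Finset Ω)
    (m r k K : ℕ) (Y Z : Finset Ω) : ℤ :=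
  ((r + m - k : ℕ) : ℤ) * (cnt G Γ Y Z : ℤ) - (K : ℤ) * genCount m r k Y.card

lemma bDefect_add (Γ : Finset Ω) (m r k K : ℕ)
    (hcnt : ∀ Y Z : Finset Ω, Disjoint Y Z → Y.card + Z.card = k →
      cnt G Γ Y Z = m.descFactorial Y.card * r.descFactorial Z.card * K)
    (hm : k ≤ m) (hr : k ≤ r) (Y Z : Finset Ω) (z : Ω) (hzY : z ∉ Y) (hdisj : Disjoint Y Z)
    (hcard : Y.card + Z.card = k) :
    bDefect G Γ m r k K Y (insert z Z) + bDefect G Γ m r k K (insert z Y) Z = 0 := by
  unfold bDefect
  have h1 := cnt_split (G := G) Γ Y Z z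
  rw [hcnt Y Z hdisj hcard] at h1
  have h2 := genCount_add m r k Y.card (by omega) (by omega) (by omega)
  have h3 : k - Y.card = Z.card := by omega
  rw [h3] at h2
  rw [Finset.card_insert_of_notMem hzY]
  have h4 : (cnt G Γ Y (insert z Z) : ℤ) + (cnt G Γ (insert z Y) Z : ℤ) =
      (m.descFactorial Y.card : ℤ) * (r.descFactorial Z.card : ℤ) * (K : ℤ) := by
    exact_mod_cast h1
  have h5 : ((r + m - k : ℕ) : ℤ) * (cnt G Γ Y (insert z Z) : ℤ) - (K : ℤ) * genCount m r k Y.card +
      (((r + m - k : ℕ) : ℤ) * (cnt G Γ (insert z Y) Z : ℤ) - (K : ℤ) * genCount m r k (Y.card + 1)) =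
      ((r + m - k : ℕ) : ℤ) * ((cnt G Γ Y (insert z Z) : ℤ) + (cnt G Γ (insert z Y) Z : ℤ)) -
        (K : ℤ) * (genCount m r k Y.card + genCount m r k (Y.card + 1)) := by ring
  rw [h5, h4, h2]
  ring

lemma bDefect_lower (Γ : Finset Ω) (m r k K : ℕ)
    (hcnt : ∀ Y Z : Finset Ω, Disjoint Y Z → Y.card + Z.card = k →
      cnt G Γ Y Z = m.descFactorial Y.card * r.descFactorial Z.card * K)
    (hm : k ≤ m) (hr : k ≤ r) (j : ℕ) :
    ∀ Y Z : Finset Ω, Disjoint Y Z → Z.card = j → Y.card + j = k + 1 →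
      -(K : ℤ) * genCount m r k (k + 1 - j % 2) ≤ bDefect G Γ m r k K Y Z := by
  classical
  induction j using Nat.twoStepInduction with
  | zero =>
    intro Y Z _ _ hY
    unfold bDefect
    have : Y.card = k + 1 := by omega
    rw [this]
    have h0 : (0 : ℤ) ≤ ((r + m - k : ℕ) : ℤ) * (cnt G Γ Y Z : ℤ) := by positivity
    simp only [Nat.zero_mod, Nat.sub_zero]
    linarith
  | one =>
    intro Y Z _ _ hY
    unfold bDefect
    have : Y.card = k := by omega
    rw [this]
    have h0 : (0 : ℤ) ≤ ((r + m - k : ℕ) : ℤ) * (cnt G Γ Y Z : ℤ) := by positivity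
    have h1 : k + 1 - 1 % 2 = k := by simp
    rw [h1]
    linarith
  | more j IH _ =>
    intro Y Z hdisj hZ hY
    have hZ1 : 0 < Z.card := by omega
    obtain ⟨z, hz⟩ := Finset.card_pos.mp hZ1
    have hZ'1 : 0 < (Z.erase z).card := by
      rw [Finset.card_erase_of_mem hz]
      omega
    obtain ⟨z', hz'⟩ := Finset.card_pos.mp hZ'1
    have hz'' := Finset.mem_erase.mp hz'
    set Z₂ := (Z.erase z).erase z' with hZ₂
    have hZeq : Z = insert z (insert z' Z₂) := by
      rw [hZ₂, Finset.insert_erase hz', Finset.insert_erase hz]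
    have hzY : z ∉ Y := fun h => Finset.disjoint_left.mp hdisj h hz
    have hz'Y : z' ∉ insert z Y := by
      intro h
      rcases Finset.mem_insert.mp h with h | h
      · exact hz''.1 h
      · exact Finset.disjoint_left.mp hdisj h hz''.2
    have hd1 : Disjoint Y (insert z' Z₂) := by
      have hsub : insert z' Z₂ ⊆ Z := by
        intro a ha
        rcases Finset.mem_insert.mp ha with h | h
        · rw [h]; exact hz''.2
        · exact (Finset.mem_erase.mp (Finset.mem_erase.mp h).2).2
      exact Finset.disjoint_of_subset_right hsub hdisj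
    have hd2 : Disjoint (insert z Y) Z₂ := by
      rw [Finset.disjoint_left]
      intro a ha ha'
      rcases Finset.mem_insert.mp ha with h | h
      · subst h
        have := (Finset.mem_erase.mp (Finset.mem_erase.mp ha').2).1
        exact this rfl
      · exact Finset.disjoint_left.mp hdisj h (Finset.mem_erase.mp (Finset.mem_erase.mp ha').2).2
    have hZ₂card : Z₂.card = j := by
      rw [hZ₂, Finset.card_erase_of_mem hz', Finset.card_erase_of_mem hz]
      omega
    have hY2 : (insert z Y).card = Y.card + 1 := Finset.card_insert_of_notMem hzY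
    have hZ₂' : (insert z' Z₂).card = j + 1 := by
      rw [Finset.card_insert_of_notMem (by simp [hZ₂])]
      omega
    have e1 := bDefect_add (G := G) Γ m r k K hcnt hm hr Y (insert z' Z₂) z hzY hd1 (by omega)
    have e2 := bDefect_add (G := G) Γ m r k K hcnt hm hr (insert z Y) Z₂ z' hz'Y hd2 (by omega)
    have hdisj3 : Disjoint (insert z' (insert z Y)) Z₂ := by
      rw [Finset.disjoint_left]
      intro a ha ha'
      rcases Finset.mem_insert.mp ha with h | h
      · subst h
        exact (Finset.mem_erase.mp ha').1 rfl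
      · exact Finset.disjoint_left.mp hd2 h ha'
    have h3 := IH (insert z' (insert z Y)) Z₂ hdisj3 hZ₂card (by
      rw [Finset.card_insert_of_notMem hz'Y]
      omega)
    rw [hZeq]
    have h4 : (j + 2) % 2 = j % 2 := by omega
    rw [h4]
    linarith

/-- Covering. -/
theorem cover_of_count (Γ : Finset Ω) (m r k K : ℕ)
    (hcnt : ∀ Y Z : Finset Ω, Disjoint Y Z → Y.card + Z.card = k →
      cnt G Γ Y Z = m.descFactorial Y.card * r.descFactorial Z.card * K)
    (hm : k ≤ m) (hr : k ≤ r) (hk2 : 2 ≤ k) (hmr : m < r) (hK : 0 < K) (X : Finset Ω) (e : Ω) (heX : e ∉ X)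
    (hX : X.card = k) : 0 < cnt G Γ {e} X := by
  classical
  have hd : Disjoint ({e} : Finset Ω) X := by simpa using heX
  have h1 := bDefect_lower (G := G) Γ m r k K hcnt hm hr k {e} X hd hX (by simp; omega)
  unfold bDefect at h1
  rw [Finset.card_singleton] at h1
  have hgen : genCount m r k (k + 1 - k % 2) < genCount m r k 1 := by
    obtain ⟨m', rfl⟩ : ∃ m', m = m' + 1 := ⟨m - 1, by omega⟩
    obtain ⟨r', rfl⟩ : ∃ r', r = r' + 1 := ⟨r - 1, by omega⟩
    unfold genCount
    rcases Nat.mod_two_eq_zero_or_one k with h0 | h0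
    · rw [h0]
      simp only [Nat.sub_zero, Nat.sub_self, Nat.descFactorial_zero, Nat.cast_one, mul_one, Nat.descFactorial_one,
        Nat.add_sub_cancel]
      rw [Nat.succ_descFactorial_succ]
      have h2 : m'.descFactorial k < (r' + 1).descFactorial k :=
        descFactorial_lt_of_lt (by omega) (by omega) (by omega)
      have h3 : ((m' + 1) * m'.descFactorial k : ℕ) < (m' + 1) * (r' + 1).descFactorial k :=
        Nat.mul_lt_mul_of_pos_left h2 (by omega)
      exact_mod_cast h3
    · rw [h0]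
      obtain ⟨k', rfl⟩ : ∃ k', k = k' + 1 := ⟨k - 1, by omega⟩
      have e1 : k' + 1 + 1 - 1 = k' + 1 := by omega
      have e2 : k' + 1 + 1 - (k' + 1) = 1 := by omega
      rw [e1, e2]
      simp only [Nat.descFactorial_one]
      rw [Nat.succ_descFactorial_succ, Nat.succ_descFactorial_succ]
      have h2 : m'.descFactorial k' < r'.descFactorial k' :=
        descFactorial_lt_of_lt (by omega) (by omega) (by omega)
      have h3 : 0 < (m' + 1) * (r' + 1) := by positivity
      have h4 : (((m' + 1) * m'.descFactorial k') * (r' + 1) : ℕ) < (m' + 1) * (r' + 1) * r'.descFactorial k' := by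
        calc ((m' + 1) * m'.descFactorial k') * (r' + 1) = (m' + 1) * (r' + 1) * m'.descFactorial k' := by ring
          _ < _ := Nat.mul_lt_mul_of_pos_left h2 h3
      have h5 : ((m' + 1 : ℕ) : ℤ) * (((r' + 1) * r'.descFactorial k' : ℕ) : ℤ) =
          (((m' + 1) * (r' + 1) * r'.descFactorial k' : ℕ) : ℤ) := by
        push_cast
        ring
      rw [h5]
      exact_mod_cast h4
  by_contra hc
  have hzero : cnt G Γ {e} X = 0 := by omega
  rw [hzero] at h1
  have hK' : (0 : ℤ) < K := by exact_mod_cast hK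
  simp only [Nat.cast_zero, mul_zero, zero_sub] at h1
  nlinarith

end cover

section steps

variable {G Ω : Type*} [Group G] [Fintype G] [MulAction G Ω] [Fintype Ω] [DecidableEq Ω]

lemma exists_level_count {k : ℕ} (hk : IsMultiplyPretransitive G Ω k) (hkn : k ≤ Fintype.card Ω) (Γ : Finset Ω) :
    ∃ K : ℕ, 0 < K ∧ ∀ Y Z : Finset Ω, Disjoint Y Z → Y.card + Z.card = k →
      cnt G Γ Y Z = Γ.card.descFactorial Y.card * (Fintype.card Ω - Γ.card).descFactorial Z.card * K := by
  classical
  obtain ⟨p₀⟩ : Nonempty (Fin k ↪ Ω) := Function.Embedding.nonempty_of_card_le (by simpa using hkn)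
  refine ⟨(Finset.univ.filter fun g : G => g • p₀ = p₀).card, Finset.card_pos.mpr ⟨1, by simp⟩, ?_⟩
  intro Y Z hd hc
  exact cnt_eq hk p₀ Γ Y Z hd hc

/-- The step when a single part is forced. -/
theorem fix_large {k : ℕ} (hk : IsMultiplyPretransitive G Ω k) (Γ : Finset Ω) (hJ : IsJ G Γ)
    (hk2 : 2 ≤ k) (hkm : k ≤ Γ.card) (hsz : 2 * Γ.card < Fintype.card Ω)
    (hbig : Fintype.card Ω < 2 * Γ.card + k) (X : Finset Ω) (hX : X.card = k) (z w : Ω) (hz : z ∉ X) (hw : w ∉ X) :
    ∃ g : G, (∀ x ∈ X, g • x = x) ∧ g • z = w := by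
  classical
  obtain ⟨K, hKpos, hcnt⟩ := exists_level_count (G := G) hk (by omega) Γ
  have hcov : ∀ e : Ω, e ∉ X → ∃ T : Finset Ω, IsJ G T ∧ Γ.card ≤ T.card ∧ Disjoint T X ∧ e ∈ T := by
    intro e he
    have h1 := cover_of_count (G := G) Γ Γ.card (Fintype.card Ω - Γ.card) k K hcnt hkm (by omega) hk2 (by omega) hKpos X e he hX
    unfold cnt at h1
    obtain ⟨g, hg⟩ := Finset.card_pos.mp h1
    simp only [Finset.mem_filter, Finset.mem_univ, true_and, Finset.mem_singleton, forall_eq] at hg
    refine ⟨translate g Γ, hJ.translate g, by rw [card_translate], ?_, ?_⟩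
    · rw [Finset.disjoint_left]
      intro a ha haX
      rw [mem_translate] at ha
      exact hg.2 a haX ha
    · rw [mem_translate]
      exact hg.1
  let F : Finset (Finset Ω) := Finset.univ.filter fun T => IsJ G T ∧ Γ.card ≤ T.card ∧ Disjoint T X ∧ z ∈ T
  obtain ⟨T₀, hT₀⟩ := hcov z hz
  obtain ⟨M, hM, hMmax⟩ := Finset.exists_max_image F Finset.card ⟨T₀, by simpa [F] using hT₀⟩
  have hM' : IsJ G M ∧ Γ.card ≤ M.card ∧ Disjoint M X ∧ z ∈ M := by simpa [F] using hM
  obtain ⟨hMJ, hMc, hMX, hMz⟩ := hM'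
  have hwM : w ∈ M := by
    by_contra hwM
    obtain ⟨T, hTJ, hTc, hTX, hTw⟩ := hcov w hw
    by_cases hint : (M ∩ T).Nonempty
    · have hU : M ∪ T ∈ F := by
        simp only [F, Finset.mem_filter, Finset.mem_univ, true_and]
        refine ⟨hMJ.union hTJ hint, ?_, ?_, Finset.mem_union_left _ hMz⟩
        · exact hMc.trans (Finset.card_le_card Finset.subset_union_left)
        · exact Finset.disjoint_union_left.mpr ⟨hMX, hTX⟩
      have hle := hMmax _ hU
      have h7 : M ∪ T = M := by
        symm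
        exact Finset.eq_of_subset_of_card_le Finset.subset_union_left hle
      apply hwM
      rw [← h7]
      exact Finset.mem_union_right _ hTw
    · have hdisj : Disjoint M T := by
        rw [Finset.disjoint_iff_inter_eq_empty]
        exact Finset.not_nonempty_iff_eq_empty.mp hint
      have h1 : (M ∪ T ∪ X).card = M.card + T.card + X.card := by
        rw [Finset.card_union_of_disjoint (Finset.disjoint_union_left.mpr ⟨hMX, hTX⟩),
          Finset.card_union_of_disjoint hdisj]
      have h2 : (M ∪ T ∪ X).card ≤ Fintype.card Ω := Finset.card_le_univ _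
      omega
  obtain ⟨g, hg, hgz⟩ := hMJ z hMz w hwM
  exact ⟨g, fun x hx => hg x (fun h => Finset.disjoint_left.mp hMX h hx), hgz⟩

omit [Fintype G] [DecidableEq Ω] in
/-- Moving a set and a pair at once. -/
lemma exists_fix_pair {k : ℕ} (hk : IsMultiplyPretransitive G Ω k) (hkn : k ≤ Fintype.card Ω) (X' : Finset Ω)
    (hX' : X'.card + 2 = k) (u v u' v' : Ω) (hu : u ∉ X') (hv : v ∉ X') (hu' : u' ∉ X') (hv' : v' ∉ X') (huv : u ≠ v)
    (hu'v' : u' ≠ v') : ∃ g : G, (∀ x ∈ X', g • x = x) ∧ g • u = u' ∧ g • v = v' := by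
  classical
  let mk : ∀ (a b : Ω), a ∉ X' → b ∉ X' → a ≠ b → (↥X' ⊕ Bool) ↪ Ω := fun a b ha hb hab =>
    ⟨Sum.elim (fun x => (x : Ω)) (fun c => cond c a b), by
      rintro (x | c) (x' | c') h
      · simp only [Sum.elim_inl] at h
        rw [Subtype.ext h]
      · cases c' <;> simp only [Sum.elim_inl, Sum.elim_inr, cond_true, cond_false] at h
        · exact absurd (h ▸ x.2) hb
        · exact absurd (h ▸ x.2) ha
      · cases c <;> simp only [Sum.elim_inl, Sum.elim_inr, cond_true, cond_false] at h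
        · exact absurd (h ▸ x'.2) (by simpa using hb)
        · exact absurd (h ▸ x'.2) (by simpa using ha)
      · cases c <;> cases c' <;> simp only [Sum.elim_inr, cond_true, cond_false] at h ⊢
        · exact absurd h.symm hab
        · exact absurd h hab⟩
  obtain ⟨g, hg⟩ := exists_smul_embedding hk (by rwa [Nat.card_eq_fintype_card]) (ι := ↥X' ⊕ Bool)
    (by simp; omega) (mk u v hu hv huv) (mk u' v' hu' hv' hu'v')
  refine ⟨g, fun x hx => ?_, ?_, ?_⟩
  · exact hg (Sum.inl ⟨x, hx⟩)
  · exact hg (Sum.inr true)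
  · exact hg (Sum.inr false)

/-- The step through `exists_fix_two`. -/
theorem fix_small {k : ℕ} (hk : IsMultiplyPretransitive G Ω k) (Γ : Finset Ω) (hJ : IsJ G Γ) (hm2 : 2 ≤ Γ.card)
    (hk2 : 2 ≤ k) (hkn : k ≤ Fintype.card Ω) (hsz : 2 * Γ.card + k ≤ Fintype.card Ω + 2)
    (X : Finset Ω) (hX : X.card = k) (z w : Ω) (hz : z ∉ X) (hw : w ∉ X) :
    ∃ g : G, (∀ x ∈ X, g • x = x) ∧ g • z = w := by
  classical
  obtain ⟨a, ha, b, hb, hab⟩ := Finset.one_lt_card.mp (by omega : 1 < X.card)
  let X' : Finset Ω := (X.erase a).erase b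
  have hb' : b ∈ X.erase a := Finset.mem_erase.mpr ⟨hab.symm, hb⟩
  have hX'c : X'.card + 2 = k := by
    have h1 : X'.card = X.card - 1 - 1 := by
      simp only [X']
      rw [Finset.card_erase_of_mem hb', Finset.card_erase_of_mem ha]
    omega
  have hX'X : ∀ x ∈ X', x ∈ X := fun x hx => (Finset.mem_erase.mp (Finset.mem_erase.mp hx).2).2
  have haX' : a ∉ X' := fun h => (Finset.mem_erase.mp (Finset.mem_erase.mp h).2).1 rfl
  have hbX' : b ∉ X' := fun h => (Finset.mem_erase.mp h).1 rfl
  have hzX' : z ∉ X' := fun h => hz (hX'X z h)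
  have hwX' : w ∉ X' := fun h => hw (hX'X w h)
  let s : Set Ω := (X' : Set Ω)
  let G' := ↥(fixingSubgroup G s)
  let Ω' := ↥(SubMulAction.ofFixingSubgroup G s)
  letI : Fintype G' := Fintype.ofFinite _
  letI : Fintype Ω' := Fintype.ofFinite _
  have hmem : ∀ x : Ω, x ∉ X' → x ∈ SubMulAction.ofFixingSubgroup G s := fun x hx => by
    show x ∉ s
    simpa [s] using hx
  have hnot : ∀ y : Ω', (y : Ω) ∉ X' := fun y h => (show (y : Ω) ∉ s from y.2) (by simpa [s] using h)
  -- two-transitivity
  have h2' : TwoTrans G' Ω' := by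
    intro u v u' v' huv hu'v'
    obtain ⟨g, hg, hgu, hgv⟩ := exists_fix_pair hk hkn X' hX'c u.1 v.1 u'.1 v'.1
      (hnot u) (hnot v) (hnot u') (hnot v')
      (fun h => huv (Subtype.ext h)) (fun h => hu'v' (Subtype.ext h))
    refine ⟨⟨g, (mem_fixingSubgroup_iff G).mpr (fun x hx => hg x (by simpa [s] using hx))⟩, ?_, ?_⟩
    · exact Subtype.ext hgu
    · exact Subtype.ext hgv
  -- a translate avoiding `X'`
  have hcomp : X'.card ≤ Fintype.card {x // x ∉ Γ} := by
    rw [Fintype.card_subtype_compl]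
    simp only [Fintype.card_coe]
    omega
  obtain ⟨e⟩ : Nonempty (↥X' ↪ {x // x ∉ Γ}) := Function.Embedding.nonempty_of_card_le (by simpa using hcomp)
  obtain ⟨g₀, hg₀⟩ := exists_smul_embedding hk (by rwa [Nat.card_eq_fintype_card]) (ι := ↥X') (by simp; omega)
    (Function.Embedding.subtype _) (e.trans (Function.Embedding.subtype _))
  have hT : ∀ x ∈ X', x ∉ translate g₀ Γ := by
    intro x hx
    rw [mem_translate]
    have h1 := hg₀ ⟨x, hx⟩
    simp only [Function.Embedding.subtype_apply, Function.Embedding.trans_apply] at h1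
    rw [h1]
    exact (e ⟨x, hx⟩).2
  set T := translate g₀ Γ with hTdef
  have hTJ : IsJ G T := hJ.translate g₀
  let T' : Finset Ω' := Finset.univ.filter fun y => (y : Ω) ∈ T
  have hT'c : T'.card = Γ.card := by
    rw [← card_translate g₀ Γ, ← hTdef]
    have h1 : T'.map (Function.Embedding.subtype _) = T := by
      ext x
      simp only [Finset.mem_map, Function.Embedding.subtype_apply, T', Finset.mem_filter, Finset.mem_univ, true_and]
      constructor
      · rintro ⟨y, hy, rfl⟩
        exact hy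
      · intro hx
        refine ⟨⟨x, hmem x (fun h => hT x h hx)⟩, hx, rfl⟩
    rw [← h1, Finset.card_map]
  have hT'J : IsJ G' T' := by
    intro x hx y hy
    have hx' : (x : Ω) ∈ T := by simpa [T'] using hx
    have hy' : (y : Ω) ∈ T := by simpa [T'] using hy
    obtain ⟨g, hg, hgx⟩ := hTJ _ hx' _ hy'
    refine ⟨⟨g, (mem_fixingSubgroup_iff G).mpr (fun u hu => hg u (hT u (by simpa [s] using hu)))⟩, ?_, ?_⟩
    · intro u hu
      apply Subtype.ext
      apply hg
      simpa [T'] using hu
    · exact Subtype.ext hgx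
  have hcardΩ' : Fintype.card Ω' = Fintype.card Ω - X'.card := by
    have h1 : Fintype.card Ω' = Fintype.card {x // x ∉ X'} :=
      Fintype.card_congr (Equiv.subtypeEquivRight (fun x => by
        show x ∉ s ↔ x ∉ X'
        simp [s]))
    rw [h1, Fintype.card_subtype_compl]
    simp
  obtain ⟨g', hga, hgb, hgz⟩ := exists_fix_two (G := G') (Ω := Ω') h2' T' hT'J (by omega) (by omega)
    (⟨a, hmem a haX'⟩ : Ω') (⟨b, hmem b hbX'⟩ : Ω') (⟨z, hmem z hzX'⟩ : Ω') (⟨w, hmem w hwX'⟩ : Ω')
    (fun h => hab (congrArg Subtype.val h))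
    (fun h => hz (by
      have h' : z = a := congrArg Subtype.val h
      rw [h']; exact ha))
    (fun h => hz (by
      have h' : z = b := congrArg Subtype.val h
      rw [h']; exact hb))
    (fun h => hw (by
      have h' : w = a := congrArg Subtype.val h
      rw [h']; exact ha))
    (fun h => hw (by
      have h' : w = b := congrArg Subtype.val h
      rw [h']; exact hb))
  refine ⟨g'.1, fun x hx => ?_, congrArg Subtype.val hgz⟩
  by_cases hxa : x = a
  · rw [hxa]; exact congrArg Subtype.val hga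
  by_cases hxb : x = b
  · rw [hxb]; exact congrArg Subtype.val hgb
  · have hxX' : x ∈ X' := Finset.mem_erase.mpr ⟨hxb, Finset.mem_erase.mpr ⟨hxa, hx⟩⟩
    exact (mem_fixingSubgroup_iff G).mp g'.2 x (by simpa [s] using hxX')

/-- High transitivity. -/
theorem high_trans (h2 : IsMultiplyPretransitive G Ω 2) (Γ : Finset Ω) (hJ : IsJ G Γ) (hm2 : 2 ≤ Γ.card)
    (hsz : 2 * Γ.card < Fintype.card Ω) (k : ℕ) (hk2 : 2 ≤ k) (hkm : k ≤ Γ.card) : IsMultiplyPretransitive G Ω k := by
  induction k, hk2 using Nat.le_induction with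
  | base => exact h2
  | succ k hk IH =>
    have hk' := IH (by omega)
    apply trans_succ hk'
    intro X hX z w hz hw
    by_cases hc : 2 * Γ.card + k ≤ Fintype.card Ω + 2
    · exact fix_small hk' Γ hJ hm2 hk (by omega) hc X hX z w hz hw
    · exact fix_large hk' Γ hJ hk (by omega) hsz (by omega) X hX z w hz hw

end steps

end Cfsg.Agent.Lib.Recog
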