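import Mathlib
import Cfsg.Agent.Lib.Recog.JordanHigh

/-! # Commutators of elements with small supports: 3-cycles -/

set_option linter.style.haveILetI false
set_option autoImplicit false

namespace Cfsg.Agent.Lib.Recog

open MulAction

section comm

variable {G Ω D : Type*} [Group G] [MulAction G Ω] [MulAction G D]

/-- Preservation of a set by an element which fixes everything outside. -/
lemma inv_preserve {π : Ω → D} {P : Set D} {σ : G} (hσ : ∀ z, π z ∉ P → σ • z = z) {z : Ω} (hz : π z ∈ P) :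
    π (σ⁻¹ • z) ∈ P := by
  by_contra hc
  have h1 := hσ _ hc
  rw [smul_inv_smul] at h1
  rw [← h1] at hc
  exact hc hz

lemma smul_preserve {π : Ω → D} {P : Set D} {σ : G} (hσ : ∀ z, π z ∉ P → σ • z = z) {z : Ω} (hz : π z ∈ P) :
    π (σ • z) ∈ P := by
  by_contra hc
  have h1 := hσ _ hc
  have h2 := smul_left_cancel σ h1
  rw [h2] at hc
  exact hc hz

/-- The commutator of two elements with almost disjoint supports fixes most points. -/
lemma comm_fix {π : Ω → D} (hπ : ∀ (g : G) (z : Ω), π (g • z) = g • π z) (P Q : Set D) (u : D)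
    (hPQ : ∀ d, d ∈ P → d ∈ Q → d = u) {σ τ : G} (hσ : ∀ z, π z ∉ P → σ • z = z) (hτ : ∀ z, π z ∉ Q → τ • z = z)
    (z : Ω) (hz1 : π z ≠ u) (hz2 : π z ≠ σ • u) (hz3 : π z ≠ τ • u) :
    (σ * τ * σ⁻¹ * τ⁻¹) • z = z := by
  have hσi : ∀ z, π z ∉ P → σ⁻¹ • z = z := fun z hz => by
    rw [inv_smul_eq_iff, hσ z hz]
  have hτi : ∀ z, π z ∉ Q → τ⁻¹ • z = z := fun z hz => by
    rw [inv_smul_eq_iff, hτ z hz]
  simp only [mul_smul]
  by_cases hQ : π z ∈ Q
  · have hP : π z ∉ P := fun h => hz1 (hPQ _ h hQ)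
    have h1 : π (τ⁻¹ • z) ∈ Q := inv_preserve hτ hQ
    have h2 : π (τ⁻¹ • z) ≠ u := by
      intro h
      apply hz3
      have : τ • π (τ⁻¹ • z) = π z := by rw [← hπ, smul_inv_smul]
      rw [← this, h]
    have h3 : π (τ⁻¹ • z) ∉ P := fun h => h2 (hPQ _ h h1)
    rw [hσi _ h3, smul_inv_smul, hσ _ hP]
  · rw [hτi _ hQ]
    by_cases hP : π z ∈ P
    · have h1 : π (σ⁻¹ • z) ∈ P := inv_preserve hσ hP
      have h2 : π (σ⁻¹ • z) ≠ u := by
        intro h
        apply hz2
        have : σ • π (σ⁻¹ • z) = π z := by rw [← hπ, smul_inv_smul]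
        rw [← this, h]
      have h3 : π (σ⁻¹ • z) ∉ Q := fun h => h2 (hPQ _ h1 h)
      rw [hτ _ h3, smul_inv_smul]
    · rw [hσi _ hP, hτ _ hQ, hσ _ hP]

/-- The commutator is a 3-cycle. -/
lemma comm_three_cycle [Fintype D] [DecidableEq D] (P Q : Set D) (u : D) (huP : u ∈ P) (huQ : u ∈ Q)
    (hPQ : ∀ d, d ∈ P → d ∈ Q → d = u) {σ τ : G} (hσ : ∀ z, z ∉ P → σ • z = z) (hτ : ∀ z, z ∉ Q → τ • z = z)
    (hσu : σ • u ≠ u) (hτu : τ • u ≠ u) :
    Equiv.Perm.IsThreeCycle (MulAction.toPerm (σ * τ * σ⁻¹ * τ⁻¹) : Equiv.Perm D) ∧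
      ∀ d, (MulAction.toPerm (σ * τ * σ⁻¹ * τ⁻¹) : Equiv.Perm D) d = d → d ≠ u ∧ d ≠ σ • u ∧ d ≠ τ • u := by
  classical
  set c := σ * τ * σ⁻¹ * τ⁻¹ with hc
  have hσi : ∀ z, z ∉ P → σ⁻¹ • z = z := fun z hz => by
    rw [inv_smul_eq_iff, hσ z hz]
  have hτi : ∀ z, z ∉ Q → τ⁻¹ • z = z := fun z hz => by
    rw [inv_smul_eq_iff, hτ z hz]
  have h1P : σ • u ∈ P := smul_preserve (π := id) hσ huP
  have h1Q : σ • u ∉ Q := fun h => hσu (hPQ _ h1P h)
  have h2Q : τ • u ∈ Q := smul_preserve (π := id) hτ huQ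
  have h2P : τ • u ∉ P := fun h => hτu (hPQ _ h h2Q)
  have hne : σ • u ≠ τ • u := fun h => h2P (h ▸ h1P)
  have c1 : c • u = σ • u := by
    simp only [hc, mul_smul]
    have h1 : (τ⁻¹ • u) ∈ Q := inv_preserve (π := id) hτ huQ
    have h2 : τ⁻¹ • u ≠ u := by
      intro h
      apply hτu
      rw [inv_smul_eq_iff] at h
      exact h.symm
    have h3 : τ⁻¹ • u ∉ P := fun h => h2 (hPQ _ h h1)
    rw [hσi _ h3, smul_inv_smul]
  have c2 : c • (σ • u) = τ • u := by
    simp only [hc, mul_smul]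
    rw [hτi _ h1Q, inv_smul_smul, hσ _ h2P]
  have c3 : c • (τ • u) = u := by
    simp only [hc, mul_smul]
    rw [inv_smul_smul]
    have h1 : (σ⁻¹ • u) ∈ P := inv_preserve (π := id) hσ huP
    have h2 : σ⁻¹ • u ≠ u := by
      intro h
      apply hσu
      rw [inv_smul_eq_iff] at h
      exact h.symm
    have h3 : σ⁻¹ • u ∉ Q := fun h => h2 (hPQ _ h1 h)
    rw [hτ _ h3, smul_inv_smul]
  have hother : ∀ d, d ≠ u → d ≠ σ • u → d ≠ τ • u → c • d = d :=
    fun d h1 h2 h3 => comm_fix (π := id) (fun _ _ => rfl) P Q u hPQ hσ hτ d h1 h2 h3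
  constructor
  · rw [← card_support_eq_three_iff]
    have hsupp : (MulAction.toPerm c : Equiv.Perm D).support = {u, σ • u, τ • u} := by
      ext d
      simp only [Equiv.Perm.mem_support, Finset.mem_insert, Finset.mem_singleton, MulAction.toPerm_apply]
      constructor
      · intro hd
        by_contra hn
        push Not at hn
        exact hd (hother d hn.1 hn.2.1 hn.2.2)
      · rintro (rfl | rfl | rfl)
        · rw [c1]; exact hσu
        · rw [c2]; exact hne.symm
        · rw [c3]; exact hτu.symm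
    rw [hsupp, Finset.card_insert_of_notMem, Finset.card_insert_of_notMem, Finset.card_singleton]
    · simpa using hne
    · simp only [Finset.mem_insert, Finset.mem_singleton, not_or]
      exact ⟨hσu.symm, hτu.symm⟩
  · intro d hd
    have hd' : c • d = d := hd
    refine ⟨?_, ?_, ?_⟩
    · rintro rfl
      rw [c1] at hd'
      exact hσu hd'
    · rintro rfl
      rw [c2] at hd'
      exact hne hd'.symm
    · rintro rfl
      rw [c3] at hd'
      exact hτu hd'.symm

end comm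

section data

variable {G D : Type*} [Group G] [Fintype G] [MulAction G D] [Fintype D] [DecidableEq D]

/-- A translate of `Γ` meeting `Γ` in exactly one point. -/
lemma exists_translate_one (Γ : Finset D) (hJ : IsJ G Γ) (h2 : IsMultiplyPretransitive G D 2)
    (hm2 : 2 ≤ Γ.card) (hsz : 2 * Γ.card < Fintype.card D) (u : D) (hu : u ∈ Γ) :
    ∃ g : G, g • u = u ∧ ∀ y ∈ Γ, g • y ∈ Γ → y = u := by
  classical
  have hk := high_trans h2 Γ hJ hm2 hsz Γ.card hm2 le_rfl
  have hcomp : (Γ.erase u).card ≤ Fintype.card {x // x ∉ Γ} := by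
    rw [Fintype.card_subtype_compl, Finset.card_erase_of_mem hu]
    simp only [Fintype.card_coe]
    omega
  obtain ⟨e⟩ : Nonempty (↥(Γ.erase u) ↪ {x // x ∉ Γ}) :=
    Function.Embedding.nonempty_of_card_le (by rw [Fintype.card_coe]; exact hcomp)
  let q : ↥Γ → D := fun y => if h : (y : D) = u then u else (e ⟨y, Finset.mem_erase.mpr ⟨h, y.2⟩⟩ : D)
  have hq : Function.Injective q := by
    intro y y' hyy
    simp only [q] at hyy
    by_cases h1 : (y : D) = u
    · by_cases h2 : (y' : D) = u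
      · exact Subtype.ext (h1.trans h2.symm)
      · rw [dif_pos h1, dif_neg h2] at hyy
        have := (e ⟨y', Finset.mem_erase.mpr ⟨h2, y'.2⟩⟩).2
        rw [← hyy] at this
        exact absurd hu this
    · by_cases h2 : (y' : D) = u
      · rw [dif_neg h1, dif_pos h2] at hyy
        have := (e ⟨y, Finset.mem_erase.mpr ⟨h1, y.2⟩⟩).2
        rw [hyy] at this
        exact absurd hu this
      · rw [dif_neg h1, dif_neg h2] at hyy
        have := e.injective (Subtype.ext hyy)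
        exact Subtype.ext (congrArg (fun a : ↥(Γ.erase u) => (a : D)) this)
  have hcard : Γ.card ≤ Nat.card D := by
    rw [Nat.card_eq_fintype_card]
    omega
  obtain ⟨g, hg⟩ := exists_smul_embedding hk hcard (ι := ↥Γ) (by simp)
    (Function.Embedding.subtype _) ⟨q, hq⟩
  have hg' : ∀ y : ↥Γ, g • (y : D) = q y := hg
  refine ⟨g, ?_, ?_⟩
  · have := hg' ⟨u, hu⟩
    simpa [q] using this
  · intro y hy hgy
    by_contra hne
    have h1 := hg' ⟨y, hy⟩
    have h2 : q ⟨y, hy⟩ = (e ⟨y, Finset.mem_erase.mpr ⟨hne, hy⟩⟩ : D) := by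
      simp only [q]
      rw [dif_neg hne]
    rw [h2] at h1
    have := (e ⟨y, Finset.mem_erase.mpr ⟨hne, hy⟩⟩).2
    rw [← h1] at this
    exact this hgy

end data

end Cfsg.Agent.Lib.Recog
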