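import Mathlib

/-! # Small lemmas on primitive actions; dihedral groups from two involutions -/

set_option linter.style.haveILetI false

namespace Cfsg.Agent.Lib.Recog

open MulAction

variable {G Ω : Type*} [Group G] [MulAction G Ω]

/-- A normal subgroup inside a point stabilizer of a faithful transitive action is trivial. -/
lemma normal_le_stabilizer_eq_bot [IsPretransitive G Ω] [FaithfulSMul G Ω] (K : Subgroup G)
    [hK : K.Normal] (a : Ω) (h : K ≤ stabilizer G a) : K = ⊥ := by
  rw [Subgroup.eq_bot_iff_forall]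
  intro x hx
  apply FaithfulSMul.eq_of_smul_eq_smul (α := Ω)
  intro ω
  obtain ⟨g, rfl⟩ := IsPretransitive.exists_smul_eq (M := G) a ω
  have h1 : g⁻¹ * x * g ∈ K := by
    have := hK.conj_mem x hx g⁻¹
    simpa using this
  have h2 : (g⁻¹ * x * g) • a = a := h h1
  rw [one_smul]
  calc x • g • a = g • (g⁻¹ * x * g) • a := by simp [mul_smul]
    _ = g • a := by rw [h2]

/-- Stabilizers of a transitive action have the same order. -/
lemma card_stabilizer_eq [IsPretransitive G Ω] (a b : Ω) :
    Nat.card (stabilizer G a) = Nat.card (stabilizer G b) := by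
  obtain ⟨g, rfl⟩ := IsPretransitive.exists_smul_eq (M := G) a b
  rw [stabilizer_smul_eq_stabilizer_map_conj]
  exact (Subgroup.card_map_of_injective (MulEquiv.injective _)).symm

/-- A group whose trivial subgroup is maximal is cyclic of prime order. -/
lemma isCyclic_prime_of_isCoatom_bot [Finite G] (h : IsCoatom (⊥ : Subgroup G)) :
    IsCyclic G ∧ (Nat.card G).Prime := by
  have hne : (⊥ : Subgroup G) ≠ ⊤ := h.1
  obtain ⟨g, hg⟩ : ∃ g : G, g ≠ 1 := by
    by_contra hc
    push Not at hc
    apply hne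
    ext x
    simp [hc x]
  have hall : ∀ K : Subgroup G, K ≠ ⊥ → K = ⊤ := by
    intro K hK
    exact h.2 K (bot_lt_iff_ne_bot.mpr hK)
  have htop : Subgroup.zpowers g = ⊤ := hall _ (by simpa using hg)
  have hcyc : IsCyclic G := ⟨⟨g, fun x => by
    have : x ∈ Subgroup.zpowers g := by rw [htop]; trivial
    exact this⟩⟩
  refine ⟨hcyc, ?_⟩
  have hcard : Nat.card G = orderOf g := by
    rw [← Nat.card_zpowers, htop, Subgroup.card_top]
  rw [hcard]
  have hn1 : orderOf g ≠ 1 := fun h1 => hg (orderOf_eq_one_iff.mp h1)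
  have hn0 : orderOf g ≠ 0 := (orderOf_pos g).ne'
  rw [Nat.prime_iff]
  refine (Nat.prime_def_minFac.mpr ?_).prime
  refine ⟨by omega, ?_⟩
  set n := orderOf g with hn
  set p := n.minFac with hp
  have hpp : p.Prime := Nat.minFac_prime hn1
  have hpd : p ∣ n := Nat.minFac_dvd n
  by_cases h1 : g ^ p = 1
  · have : n ∣ p := orderOf_dvd_of_pow_eq_one h1
    exact Nat.dvd_antisymm hpd this
  · exfalso
    have h2 : Subgroup.zpowers (g ^ p) = ⊤ := hall _ (by simpa using h1)
    have h3 : orderOf (g ^ p) = n := by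
      rw [← Nat.card_zpowers, h2, Subgroup.card_top, hcard]
    rw [orderOf_pow_of_dvd hpp.ne_zero hpd] at h3
    have h4 := Nat.div_mul_cancel hpd
    rw [h3] at h4
    have h5 : n * p = n * 1 := by rw [h4, mul_one]
    have h6 := Nat.eq_of_mul_eq_mul_left (Nat.pos_of_ne_zero hn0) h5
    exact hpp.one_lt.ne' h6

/-- A finite group generated by two involutions `s, t` such that `s ∉ ⟨st⟩` is dihedral. -/
lemma nonempty_mulEquiv_dihedral [Finite G] (s t : G) (hs : s * s = 1) (ht : t * t = 1)
    (hgen : Subgroup.closure {s, t} = ⊤) (hsn : s ∉ Subgroup.zpowers (s * t)) :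
    Nonempty (G ≃* DihedralGroup (orderOf (s * t))) := by
  classical
  set r := s * t with hr
  set n := orderOf r with hn
  have hn0 : 0 < n := orderOf_pos r
  haveI : NeZero n := ⟨hn0.ne'⟩
  have hsinv : s⁻¹ = s := inv_eq_of_mul_eq_one_left hs
  have htinv : t⁻¹ = t := inv_eq_of_mul_eq_one_left ht
  have hrinv : r⁻¹ = t * s := by
    rw [hr, mul_inv_rev, hsinv, htinv]
  have hsr : s * r * s = r⁻¹ := by
    rw [hrinv, hr, ← mul_assoc, hs, one_mul]
  -- the map on ZMod
  let ρ : ZMod n → G := fun i => r ^ i.val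
  have hρadd : ∀ i j : ZMod n, ρ (i + j) = ρ i * ρ j := by
    intro i j
    simp only [ρ]
    rw [ZMod.val_add, ← pow_add]
    exact pow_mod_orderOf r _
  have hρzero : ρ 0 = 1 := by simp [ρ, ZMod.val_zero]
  have hρneg : ∀ i : ZMod n, ρ (-i) = (ρ i)⁻¹ := by
    intro i
    have := hρadd (-i) i
    rw [neg_add_cancel, hρzero] at this
    exact eq_inv_of_mul_eq_one_left this.symm
  have hρsub : ∀ i j : ZMod n, ρ (j - i) = (ρ i)⁻¹ * ρ j := by
    intro i j
    rw [sub_eq_add_neg, add_comm, hρadd, hρneg]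
  have hsρ : ∀ i : ZMod n, s * ρ i * s = (ρ i)⁻¹ := by
    intro i
    simp only [ρ]
    have : s * r ^ i.val * s = (s * r * s) ^ i.val := by
      have h := conj_pow (a := s) (b := r) (i := i.val)
      rw [hsinv] at h
      exact h.symm
    rw [this, hsr, inv_pow]
  have hsρ' : ∀ i : ZMod n, ρ i * s = s * (ρ i)⁻¹ := by
    intro i
    rw [← hsρ i, ← mul_assoc, ← mul_assoc, hs, one_mul]
  let f : DihedralGroup n →* G :=
    { toFun := fun x => match x with
        | DihedralGroup.r i => ρ i
        | DihedralGroup.sr i => s * ρ i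
      map_one' := by
        show ρ 0 = 1
        exact hρzero
      map_mul' := by
        rintro (i | i) (j | j)
        · show ρ (i + j) = ρ i * ρ j
          exact hρadd i j
        · show s * ρ (j - i) = ρ i * (s * ρ j)
          rw [hρsub, ← mul_assoc, ← mul_assoc, hsρ']
        · show s * ρ (i + j) = s * ρ i * ρ j
          rw [hρadd, mul_assoc]
        · show ρ (j - i) = s * ρ i * (s * ρ j)
          rw [hρsub, ← mul_assoc, hsρ] }
  have hfr : ∀ i, f (DihedralGroup.r i) = ρ i := fun _ => rfl
  have hfsr : ∀ i, f (DihedralGroup.sr i) = s * ρ i := fun _ => rfl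
  have hρ1 : n ≠ 1 → ρ 1 = r := by
    intro h1
    haveI : Fact (1 < n) := ⟨by omega⟩
    simp only [ρ]
    rw [ZMod.val_one, pow_one]
  have hsurj : Function.Surjective f := by
    rw [← MonoidHom.range_eq_top, eq_top_iff, ← hgen, Subgroup.closure_le]
    rintro x (rfl | rfl)
    · refine ⟨DihedralGroup.sr 0, ?_⟩
      rw [hfsr, hρzero, mul_one]
    · by_cases h1 : n = 1
      · have hr1 : r = 1 := by
          rw [hn] at h1
          exact orderOf_eq_one_iff.mp h1
        have ht' : x = s := by
          have : s * x = 1 := hr1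
          exact (mul_left_cancel (this.trans hs.symm))
        refine ⟨DihedralGroup.sr 0, ?_⟩
        rw [hfsr, hρzero, mul_one, ht']
      · refine ⟨DihedralGroup.sr 1, ?_⟩
        rw [hfsr, hρ1 h1, hr, ← mul_assoc, hs, one_mul]
  have hρinj : Function.Injective ρ := by
    intro i j hij
    have h1 : r ^ i.val = r ^ j.val := hij
    have h2 : i.val % n = j.val % n := pow_inj_mod.mp h1
    rw [Nat.mod_eq_of_lt (ZMod.val_lt i), Nat.mod_eq_of_lt (ZMod.val_lt j)] at h2
    exact ZMod.val_injective n h2
  have hρmem : ∀ i, ρ i ∈ Subgroup.zpowers r := by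
    intro i
    exact Subgroup.npow_mem_zpowers _ _
  have hinj : Function.Injective f := by
    intro x y hxy
    rcases x with i | i <;> rcases y with j | j
    · rw [hfr, hfr] at hxy
      rw [hρinj hxy]
    · rw [hfr, hfsr] at hxy
      exfalso
      apply hsn
      have : s = ρ i * (ρ j)⁻¹ := by rw [hxy]; simp
      rw [this]
      exact Subgroup.mul_mem _ (hρmem i) (Subgroup.inv_mem _ (hρmem j))
    · rw [hfsr, hfr] at hxy
      exfalso
      apply hsn
      have : s = ρ j * (ρ i)⁻¹ := by rw [← hxy]; simp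
      rw [this]
      exact Subgroup.mul_mem _ (hρmem j) (Subgroup.inv_mem _ (hρmem i))
    · rw [hfsr, hfsr] at hxy
      rw [hρinj (mul_left_cancel hxy)]
  exact ⟨(MulEquiv.ofBijective f ⟨hinj, hsurj⟩).symm⟩

end Cfsg.Agent.Lib.Recog
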